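import Mathlib
import Cfsg.Agent.Lib.Helper17.Syl

set_option autoImplicit false

namespace Cfsg.Agent.Lib.Helper18

open Cfsg.Agent.Lib.Helper17

variable {G : Type*} [Group G] [Finite G]

/-- the normalizer of `R ∩ T` is proper when `T` is a nonabelian simple normal subgroup. -/
theorem normalizer_inf_simple_ne_top (T : Subgroup G) [T.Normal] (hT : IsSimpleGroup T)
    (hna : ¬ IsMulCommutative T) {r : ℕ} [Fact r.Prime] (R : Sylow r G)
    (hR0 : (R : Subgroup G) ⊓ T ≠ ⊥) :
    Subgroup.normalizer (((R : Subgroup G) ⊓ T : Subgroup G) : Set G) ≠ ⊤ := by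
  intro htop
  have hn : ((R : Subgroup G) ⊓ T).Normal := Subgroup.normalizer_eq_top_iff.mp htop
  have hn' : (((R : Subgroup G) ⊓ T).subgroupOf T).Normal := hn.subgroupOf T
  rcases hT.eq_bot_or_eq_top_of_normal _ hn' with h | h
  · rw [Subgroup.subgroupOf_eq_bot] at h
    apply hR0
    have := h.eq_bot
    rwa [inf_assoc, inf_idem] at this
  · rw [Subgroup.subgroupOf_eq_top] at h
    have hTR : T ≤ (R : Subgroup G) := h.trans inf_le_left
    have hTp : IsPGroup r T := R.2.to_le hTR
    have hnt : Nontrivial T := hT.toNontrivial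
    have hc := hTp.center_nontrivial
    rcases hT.eq_bot_or_eq_top_of_normal (Subgroup.center T) inferInstance with h1 | h1
    · rw [h1] at hc
      exact not_nontrivial _ hc
    · apply hna
      constructor
      constructor
      intro a b
      have : b ∈ Subgroup.center T := by rw [h1]; trivial
      exact Subgroup.mem_center_iff.mp this a

/-- `T · N_G(R ∩ T) = G`. -/
theorem sup_normalizer_inf_eq_top (T : Subgroup G) [T.Normal] {r : ℕ} [Fact r.Prime] (R : Sylow r G) :
    T ⊔ Subgroup.normalizer (((R : Subgroup G) ⊓ T : Subgroup G) : Set G) = ⊤ := by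
  have hs : IsSyl r ((R : Subgroup G) ⊓ T) T :=
    (isSyl_top R).inf_normal le_top (by rw [Subgroup.normalizer_eq_top]; )
  rw [eq_top_iff]
  intro g _
  obtain ⟨n, hn, h⟩ := frattini_arg (M := ⊤) hs (by rw [Subgroup.normalizer_eq_top]) (m := g) trivial
  have : g = n * (n⁻¹ * g) := by group
  rw [this]
  exact Subgroup.mul_mem_sup hn h

theorem sylow_le_normalizer_inf (T : Subgroup G) [T.Normal] {r : ℕ} (R : Sylow r G) :
    Subgroup.normalizer ((R : Subgroup G) : Set G) ≤
      Subgroup.normalizer (((R : Subgroup G) ⊓ T : Subgroup G) : Set G) :=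
  le_normalizer_inf le_rfl (by rw [Subgroup.normalizer_eq_top (H := T)]; exact le_top)

end Cfsg.Agent.Lib.Helper18
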