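import Mathlib
import Cfsg.Prelude.Def_BaumannBlocks
import Cfsg.Agent.Lib.Helper18.CD

set_option autoImplicit false

namespace Cfsg.Agent.Lib.Helper18

open scoped Pointwise

variable {P : Type*} [Group P]

theorem isCentralizerLarge_iff [Finite P] (R : Subgroup P) : Cfsg.IsCentralizerLarge R ↔ IsCDMax R := by
  unfold Cfsg.IsCentralizerLarge Cfsg.maxCentralizerProduct
  have hset : {k : ℕ | ∃ R : Subgroup P, Nat.card ↥R * Nat.card ↥(Subgroup.centralizer (R : Set P)) = k}
      = Set.range (cdm (G := P)) := by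
    ext k; simp [cdm]
  rw [hset]
  have hbdd : BddAbove (Set.range (cdm (G := P))) := (Set.finite_range _).bddAbove
  constructor
  · intro h K
    have : cdm K ≤ sSup (Set.range (cdm (G := P))) := le_csSup hbdd ⟨K, rfl⟩
    rw [← h] at this
    exact this
  · intro h
    have : IsGreatest (Set.range (cdm (G := P))) (cdm R) :=
      ⟨⟨R, rfl⟩, by rintro _ ⟨K, rfl⟩; exact h K⟩
    exact this.csSup_eq.symm

/-- The measure `|R| * |Z(R)|`. -/
noncomputable def clm (R : Subgroup P) : ℕ := Nat.card R * Nat.card (Subgroup.center R)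

def IsCLMax (R : Subgroup P) : Prop := ∀ K : Subgroup P, clm K ≤ clm R

theorem isCentrallyLarge_iff [Finite P] (R : Subgroup P) : Cfsg.IsCentrallyLarge R ↔ IsCLMax R := by
  unfold Cfsg.IsCentrallyLarge Cfsg.maxCentralProduct
  have hset : {k : ℕ | ∃ R : Subgroup P, Nat.card ↥R * Nat.card ↥(Subgroup.center ↥R) = k}
      = Set.range (clm (P := P)) := by
    ext k; simp [clm]
  rw [hset]
  have hbdd : BddAbove (Set.range (clm (P := P))) := (Set.finite_range _).bddAbove
  constructor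
  · intro h K
    have : clm K ≤ sSup (Set.range (clm (P := P))) := le_csSup hbdd ⟨K, rfl⟩
    rw [← h] at this
    exact this
  · intro h
    have : IsGreatest (Set.range (clm (P := P))) (clm R) :=
      ⟨⟨R, rfl⟩, by rintro _ ⟨K, rfl⟩; exact h K⟩
    exact this.csSup_eq.symm

theorem map_center_eq (R : Subgroup P) :
    (Subgroup.center R).map R.subtype = R ⊓ Subgroup.centralizer (R : Set P) := by
  ext x
  rw [Subgroup.mem_map, Subgroup.mem_inf]
  constructor
  · rintro ⟨⟨y, hy⟩, hyc, rfl⟩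
    refine ⟨hy, ?_⟩
    rw [Subgroup.mem_centralizer_iff]
    intro r hr
    have := (Subgroup.mem_center_iff.mp hyc) ⟨r, hr⟩
    exact congrArg Subtype.val this
  · rintro ⟨hx, hxc⟩
    refine ⟨⟨x, hx⟩, ?_, rfl⟩
    rw [Subgroup.mem_center_iff]
    rintro ⟨r, hr⟩
    exact Subtype.ext ((Subgroup.mem_centralizer_iff.mp hxc) r hr)

theorem card_center_eq (R : Subgroup P) :
    Nat.card (Subgroup.center R) = Nat.card (R ⊓ Subgroup.centralizer (R : Set P) : Subgroup P) := by
  rw [← map_center_eq, Subgroup.card_map_of_injective R.subtype_injective]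

theorem clm_eq (R : Subgroup P) :
    clm R = Nat.card R * Nat.card (R ⊓ Subgroup.centralizer (R : Set P) : Subgroup P) := by
  unfold clm; rw [card_center_eq]

theorem clm_le_cdm [Finite P] (R : Subgroup P) : clm R ≤ cdm R := by
  rw [clm_eq]
  exact Nat.mul_le_mul_left _ (Subgroup.card_le_of_le inf_le_right)

theorem clm_eq_cdm_of_le {R : Subgroup P} (h : Subgroup.centralizer (R : Set P) ≤ R) :
    clm R = cdm R := by
  rw [clm_eq, inf_eq_right.mpr h]; rfl

theorem exists_isCDMax_centralizer_le [Finite P] :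
    ∃ T : Subgroup P, IsCDMax T ∧ Subgroup.centralizer (T : Set P) ≤ T := by
  obtain ⟨H, hH⟩ := exists_isCDMax (G := P)
  refine ⟨H ⊔ Subgroup.centralizer (H : Set P), hH.sup hH.centralizer, ?_⟩
  rw [centralizer_sup]
  exact inf_le_left.trans le_sup_right

theorem isCLMax_iff [Finite P] (Q : Subgroup P) :
    IsCLMax Q ↔ IsCDMax Q ∧ Subgroup.centralizer (Q : Set P) ≤ Q := by
  obtain ⟨T, hT, hTc⟩ := exists_isCDMax_centralizer_le (P := P)
  constructor
  · intro hQ
    have h1 : cdm T ≤ clm Q := by rw [← clm_eq_cdm_of_le hTc]; exact hQ T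
    have h2 : clm Q ≤ cdm Q := clm_le_cdm Q
    have h3 : cdm Q ≤ cdm T := hT Q
    have hmax : IsCDMax Q := hT.of_cdm_le (h1.trans h2)
    refine ⟨hmax, ?_⟩
    have h4 : clm Q = cdm Q := le_antisymm h2 (h3.trans h1)
    rw [clm_eq] at h4
    unfold cdm at h4
    have h5 := Nat.eq_of_mul_eq_mul_left Nat.card_pos h4
    have h6 : Q ⊓ Subgroup.centralizer (Q : Set P) = Subgroup.centralizer (Q : Set P) :=
      Subgroup.eq_of_le_of_card_ge inf_le_right h5.ge
    exact inf_eq_right.mp h6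
  · rintro ⟨hQ, hc⟩ K
    rw [clm_eq_cdm_of_le hc]
    exact (clm_le_cdm K).trans (hQ K)

theorem exists_isCLMax [Finite P] : ∃ T : Subgroup P, IsCLMax T := by
  obtain ⟨T, hT, hTc⟩ := exists_isCDMax_centralizer_le (P := P)
  exact ⟨T, (isCLMax_iff T).mpr ⟨hT, hTc⟩⟩

theorem IsCLMax.sup [Finite P] {Q R : Subgroup P} (hQ : IsCLMax Q) (hR : IsCLMax R) :
    IsCLMax (Q ⊔ R) := by
  rw [isCLMax_iff] at hQ hR ⊢
  refine ⟨hQ.1.sup hR.1, ?_⟩
  rw [centralizer_sup]
  exact inf_le_left.trans (hQ.2.trans le_sup_left)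

theorem IsCLMax.sSup [Finite P] {s : Set (Subgroup P)} (hne : s.Nonempty)
    (h : ∀ H ∈ s, IsCLMax H) : IsCLMax (sSup s) :=
  sSup_induction (fun _ _ ha hb => ha.sup hb) hne h

theorem isMinimalCentrallyLarge_iff [Finite P] (R : Subgroup P) :
    Cfsg.IsMinimalCentrallyLarge R ↔ IsCLMax R ∧ ∀ R' : Subgroup P, R' ≤ R → IsCLMax R' → R' = R := by
  unfold Cfsg.IsMinimalCentrallyLarge
  simp only [isCentrallyLarge_iff]

theorem exists_minimalCL_le [Finite P] {Q : Subgroup P} (hQ : IsCLMax Q) :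
    ∃ R : Subgroup P, R ≤ Q ∧ Cfsg.IsMinimalCentrallyLarge R := by
  obtain ⟨R, hRQ, hR⟩ := Finite.exists_le_minimal (p := fun B : Subgroup P => IsCLMax B) hQ
  refine ⟨R, hRQ, (isMinimalCentrallyLarge_iff R).mpr ⟨hR.prop, fun R' hle hR' => ?_⟩⟩
  exact le_antisymm hle (hR.le_of_le hR' hle)

end Cfsg.Agent.Lib.Helper18
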