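import Mathlib
import Cfsg.Prelude.Def_BaumannBlocks
import Cfsg.Agent.Lib.Helper18.CL

set_option autoImplicit false

namespace Cfsg.Agent.Lib.Helper18

open scoped Pointwise

variable {P : Type*} [Group P]

theorem centralizer_anti {H K : Subgroup P} (h : H ≤ K) :
    Subgroup.centralizer (K : Set P) ≤ Subgroup.centralizer (H : Set P) :=
  Subgroup.centralizer_le (by exact_mod_cast h)

theorem maxAbelian_le_centralizer {A : Subgroup P} (hA : A ∈ Cfsg.maxAbelianSubgroups P) :
    A ≤ Subgroup.centralizer (A : Set P) :=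
  Subgroup.le_centralizer_iff_isMulCommutative.mpr hA.1

theorem maxAbelian_centralizer [Finite P] {A : Subgroup P} (hA : A ∈ Cfsg.maxAbelianSubgroups P) :
    Subgroup.centralizer (A : Set P) = A := by
  have hAc := maxAbelian_le_centralizer hA
  apply le_antisymm _ hAc
  intro c hc
  have hW : Subgroup.zpowers c ≤ Subgroup.centralizer (A : Set P) := by
    rw [Subgroup.zpowers_le]; exact hc
  have hcomm : IsMulCommutative ↥(A ⊔ Subgroup.zpowers c) := by
    rw [← Subgroup.le_centralizer_iff_isMulCommutative, centralizer_sup]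
    apply sup_le
    · refine le_inf hAc ?_
      exact (le_centralizer_centralizer A).trans (centralizer_anti hW)
    · refine le_inf hW ?_
      exact Subgroup.le_centralizer_iff_isMulCommutative.mpr inferInstance
  have hcard := hA.2 _ hcomm
  have heq : A = A ⊔ Subgroup.zpowers c := Subgroup.eq_of_le_of_card_ge le_sup_left hcard
  rw [heq]
  exact le_sup_right (a := A) (Subgroup.mem_zpowers c)

theorem IsCLMax.sup_maxAbelian [Finite P] {Q A : Subgroup P} (hQ : IsCLMax Q)
    (hA : A ∈ Cfsg.maxAbelianSubgroups P) :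
    ((Q ⊔ A : Subgroup P) : Set P) = (Q : Set P) * (A : Set P) ∧ IsCLMax (Q ⊔ A) ∧
    ((Q ⊓ A) ⊔ Subgroup.centralizer (Q : Set P)) ∈ Cfsg.maxAbelianSubgroups P ∧
    (((Q ⊓ A) ⊔ Subgroup.centralizer (Q : Set P) : Subgroup P) : Set P)
      = ((Q ⊓ A : Subgroup P) : Set P) * (Subgroup.centralizer (Q : Set P) : Set P) := by
  obtain ⟨hQm, hQc⟩ := (isCLMax_iff Q).mp hQ
  have hAc := maxAbelian_le_centralizer hA
  have hCA := maxAbelian_centralizer hA
  have hQcc := le_centralizer_centralizer Q
  -- A₁ is abelian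
  have hA₁ : IsMulCommutative ↥((Q ⊓ A) ⊔ Subgroup.centralizer (Q : Set P)) := by
    rw [← Subgroup.le_centralizer_iff_isMulCommutative, centralizer_sup]
    apply sup_le
    · refine le_inf ?_ (inf_le_left.trans hQcc)
      exact inf_le_right.trans (hAc.trans (centralizer_anti inf_le_right))
    · exact le_inf (centralizer_anti inf_le_left) (hQc.trans hQcc)
  have h1 := hA.2 _ hA₁
  have h2 := card_mul_card_le (Q ⊓ A) (Subgroup.centralizer (Q : Set P))
  have hDZ : (Q ⊓ A) ⊓ Subgroup.centralizer (Q : Set P) = Subgroup.centralizer (Q : Set P) ⊓ A := by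
    apply le_antisymm
    · exact le_inf inf_le_right (inf_le_left.trans inf_le_right)
    · exact le_inf (le_inf (inf_le_left.trans hQc) inf_le_right) inf_le_left
  rw [hDZ] at h2
  have h3 := card_mul_card_le Q A
  have h4 := hQm (Q ⊔ A)
  unfold cdm at h4
  rw [centralizer_sup, hCA] at h4
  set q := Nat.card Q
  set a := Nat.card A
  set z := Nat.card (Subgroup.centralizer (Q : Set P))
  set d := Nat.card (Q ⊓ A : Subgroup P)
  set e := Nat.card (Subgroup.centralizer (Q : Set P) ⊓ A : Subgroup P)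
  set s := Nat.card (Q ⊔ A : Subgroup P)
  set a₁ := Nat.card ((Q ⊓ A) ⊔ Subgroup.centralizer (Q : Set P) : Subgroup P)
  have hq : 0 < q := Nat.card_pos
  have hd : 0 < d := Nat.card_pos
  have he : 0 < e := Nat.card_pos
  have hz : 0 < z := Nat.card_pos
  have ha : 0 < a := Nat.card_pos
  -- chain
  have c1 : d * z ≤ a * e := h2.trans (Nat.mul_le_mul_right _ h1)
  have c2 : (q * a) * (d * z) ≤ (s * d) * (a * e) := Nat.mul_le_mul h3 c1
  have c3 : (s * d) * (a * e) ≤ (q * a) * (d * z) := by
    calc (s * d) * (a * e) = (s * e) * (d * a) := by ring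
      _ ≤ (q * z) * (d * a) := Nat.mul_le_mul_right _ h4
      _ = (q * a) * (d * z) := by ring
  obtain ⟨e1, e2⟩ := eq_of_mul_le h3 c1 c3 (Nat.mul_pos hq ha) (Nat.mul_pos hd hz)
  have e3 : d * z = a₁ * e := le_antisymm h2 (e2 ▸ Nat.mul_le_mul_right _ h1)
  have e4 : a₁ = a := Nat.eq_of_mul_eq_mul_right he (e3.symm.trans e2)
  have e5 : s * e = q * z := by
    have : (s * e) * (d * a) = (q * z) * (d * a) := by
      calc (s * e) * (d * a) = (s * d) * (a * e) := by ring
        _ = (q * a) * (d * z) := by rw [← e1, ← e2]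
        _ = (q * z) * (d * a) := by ring
    exact Nat.eq_of_mul_eq_mul_right (Nat.mul_pos hd ha) this
  refine ⟨coe_sup_eq_mul_of_card Q A e1, ?_, ⟨hA₁, fun B hB => ?_⟩, ?_⟩
  · rw [isCLMax_iff]
    constructor
    · apply hQm.of_cdm_eq
      unfold cdm
      rw [centralizer_sup, hCA]
      exact e5.symm
    · rw [centralizer_sup]
      exact inf_le_left.trans (hQc.trans le_sup_left)
  · exact (hA.2 B hB).trans e4.ge
  · apply coe_sup_eq_mul_of_card
    rw [hDZ]
    exact e3

end Cfsg.Agent.Lib.Helper18
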