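import Mathlib

set_option autoImplicit false

namespace Cfsg.Agent.Lib.Helper18

/-- In a finite abelian group of prime exponent every subgroup has a complement. -/
theorem exists_compl_of_exponent {V : Type*} [Group V] [Finite V]
    (hc : ∀ x y : V, x * y = y * x) (p : ℕ) [hp : Fact p.Prime] (hexp : ∀ x : V, x ^ p = 1)
    (U : Subgroup V) : ∃ W : Subgroup V, U ⊓ W = ⊥ ∧ U ⊔ W = ⊤ := by
  classical
  let _ : CommGroup V := { (inferInstance : Group V) with mul_comm := hc }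
  obtain ⟨W, hW⟩ := (Set.toFinite {W : Subgroup V | U ⊓ W = ⊥}).exists_maximal ⟨⊥, by simp⟩
  have hW1 : U ⊓ W = ⊥ := hW.1
  refine ⟨W, hW1, ?_⟩
  by_contra hne
  obtain ⟨v, hv⟩ : ∃ v : V, v ∉ U ⊔ W := by
    by_contra h
    push Not at h
    exact hne (eq_top_iff.2 fun x _ => h x)
  have hW' : U ⊓ (W ⊔ Subgroup.zpowers v) = ⊥ := by
    rw [eq_bot_iff]
    intro x hx
    obtain ⟨hx1, hx2⟩ := hx
    obtain ⟨w, hw, y, hy, rfl⟩ := Subgroup.mem_sup.1 hx2
    obtain ⟨k, rfl⟩ := Subgroup.mem_zpowers_iff.1 hy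
    by_cases hk : (p : ℤ) ∣ k
    · obtain ⟨m, rfl⟩ := hk
      have h1 : v ^ ((p : ℤ) * m) = 1 := by
        rw [zpow_mul, zpow_natCast, hexp, one_zpow]
      rw [h1, mul_one] at hx1 ⊢
      have : w ∈ U ⊓ W := ⟨hx1, hw⟩
      rwa [hW1] at this
    · exfalso
      have hcop : IsCoprime (p : ℤ) k :=
        (Nat.prime_iff_prime_int.1 hp.out).coprime_iff_not_dvd.2 hk
      obtain ⟨a, b, hab⟩ := hcop
      have h2 : v ^ k ∈ U ⊔ W := by
        have : v ^ k = (w * v ^ k) * w⁻¹ := by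
          rw [mul_comm w, mul_assoc, mul_inv_cancel, mul_one]
        rw [this]
        exact Subgroup.mul_mem_sup hx1 (W.inv_mem hw)
      apply hv
      have h3 : v = (v ^ k) ^ b := by
        have : v = v ^ (a * (p : ℤ) + b * k) := by rw [hab, zpow_one]
        rw [zpow_add, mul_comm a, zpow_mul, zpow_natCast, hexp, one_zpow, one_mul, mul_comm b,
          zpow_mul] at this
        exact this
      rw [h3]
      exact Subgroup.zpow_mem _ h2 _
  have hle : W ≤ W ⊔ Subgroup.zpowers v := le_sup_left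
  have := hW.2 (show (W ⊔ Subgroup.zpowers v) ∈ {W : Subgroup V | U ⊓ W = ⊥} from hW') hle
  apply hv
  exact (le_sup_right : W ≤ U ⊔ W) (this ((le_sup_right : Subgroup.zpowers v ≤ W ⊔ Subgroup.zpowers v)
    (Subgroup.mem_zpowers v)))

end Cfsg.Agent.Lib.Helper18
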