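import Mathlib
import Cfsg.Prelude.Def_BaumannBlocks
import Cfsg.Agent.Lib.Helper18.CLA

set_option autoImplicit false

namespace Cfsg.Agent.Lib.Helper18

open scoped Pointwise commutatorElement

variable {P : Type*} [Group P]

theorem commutatorElement_mul_left_of_commute {a b z : P} (h : Commute z b) :
    ⁅a * z, b⁆ = ⁅a, b⁆ := by
  rw [commutatorElement_def, commutatorElement_def]
  have : z * b * z⁻¹ = b := by rw [h.eq]; group
  calc a * z * b * (a * z)⁻¹ * b⁻¹ = a * (z * b * z⁻¹) * a⁻¹ * b⁻¹ := by group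
    _ = a * b * a⁻¹ * b⁻¹ := by rw [this]

theorem commutatorElement_mul_right_of_commute {a b z : P} (h : Commute z a) :
    ⁅a, b * z⁆ = ⁅a, b⁆ := by
  rw [commutatorElement_def, commutatorElement_def]
  have : z * a⁻¹ * z⁻¹ = a⁻¹ := by rw [(h.inv_right).eq]; group
  calc a * (b * z) * a⁻¹ * (b * z)⁻¹ = a * b * (z * a⁻¹ * z⁻¹) * b⁻¹ := by group
    _ = a * b * a⁻¹ * b⁻¹ := by rw [this]

/-- The minimal-CL predicate in our terms. -/
def IsMinCL (R : Subgroup P) : Prop :=
  IsCLMax R ∧ ∀ R' : Subgroup P, R' ≤ R → IsCLMax R' → R' = R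

theorem IsMinCL.inf_sup_centralizer [Finite P] {Q R : Subgroup P} (hQ : IsMinCL Q) (hR : IsMinCL R) :
    (Q ⊓ R) ⊔ Subgroup.centralizer (Q : Set P) = Q := by
  obtain ⟨hQm, hQc⟩ := (isCLMax_iff Q).mp hQ.1
  obtain ⟨hRm, hRc⟩ := (isCLMax_iff R).mp hR.1
  have hlat := hQm.lattice hRm
  apply hQ.2 _ (sup_le inf_le_left hQc)
  rw [isCLMax_iff]
  refine ⟨hlat.2.1.sup hQm.centralizer, ?_⟩
  rw [centralizer_sup, hQm.centralizer_centralizer, hlat.2.2.2.2]
  intro x hx
  have hx1 : x ∈ ((Subgroup.centralizer (Q : Set P) ⊔ Subgroup.centralizer (R : Set P) : Subgroup P) : Set P) :=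
    hx.1
  rw [hlat.2.2.2.1] at hx1
  obtain ⟨z, hz, w, hw, rfl⟩ := hx1
  have hwQ : w ∈ Q := by
    have := Q.mul_mem (Q.inv_mem (hQc hz)) hx.2
    simpa using this
  exact Subgroup.mul_mem _ (le_sup_right (a := Q ⊓ R) hz) (le_sup_left (a := Q ⊓ R) ⟨hwQ, hRc hw⟩)

theorem IsMinCL.commutator_eq_inf [Finite P] {Q R : Subgroup P} (hQ : IsMinCL Q) (hR : IsMinCL R) :
    ⁅Q, Q⁆ = ⁅Q ⊓ R, Q ⊓ R⁆ := by
  obtain ⟨hQm, hQc⟩ := (isCLMax_iff Q).mp hQ.1
  obtain ⟨hRm, hRc⟩ := (isCLMax_iff R).mp hR.1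
  have hset := ((hQm.inf hRm).lattice hQm.centralizer).2.2.1
  rw [hQ.inf_sup_centralizer hR] at hset
  apply le_antisymm
  · rw [Subgroup.commutator_le]
    intro g₁ hg₁ g₂ hg₂
    have h1 : g₁ ∈ (Q : Set P) := hg₁
    have h2 : g₂ ∈ (Q : Set P) := hg₂
    rw [hset] at h1 h2
    obtain ⟨x₁, hx₁, z₁, hz₁, rfl⟩ := h1
    obtain ⟨x₂, hx₂, z₂, hz₂, rfl⟩ := h2
    have c1 : Commute z₁ (x₂ * z₂) := ((Subgroup.mem_centralizer_iff.mp hz₁) _ hg₂).symm
    have c2 : Commute z₂ x₁ := ((Subgroup.mem_centralizer_iff.mp hz₂) _ hx₁.1).symm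
    rw [commutatorElement_mul_left_of_commute c1, commutatorElement_mul_right_of_commute c2]
    exact Subgroup.commutator_mem_commutator hx₁ hx₂
  · exact Subgroup.commutator_mono inf_le_left inf_le_left

theorem IsMinCL.commutator_eq [Finite P] {Q R : Subgroup P} (hQ : IsMinCL Q) (hR : IsMinCL R) :
    ⁅Q, Q⁆ = ⁅R, R⁆ := by
  rw [hQ.commutator_eq_inf hR, hR.commutator_eq_inf hQ, inf_comm]

theorem IsMinCL.inf_centralizer_le [Finite P] {Q R : Subgroup P} (hQ : IsMinCL Q) (hR : IsMinCL R) :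
    (Q ⊓ R) ⊓ Subgroup.centralizer (Q : Set P) ≤ (Q ⊓ R) ⊓ Subgroup.centralizer (R : Set P) := by
  refine le_inf inf_le_left ?_
  have h := hR.inf_sup_centralizer hQ
  have h2 : Subgroup.centralizer (R : Set P)
      = Subgroup.centralizer ((R ⊓ Q : Subgroup P) : Set P) ⊓
        Subgroup.centralizer ((Subgroup.centralizer (R : Set P) : Subgroup P) : Set P) := by
    rw [← centralizer_sup, h]
  rw [h2]
  refine le_inf ?_ ?_
  · exact inf_le_right.trans (centralizer_anti inf_le_right)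
  · exact (inf_le_left.trans inf_le_right).trans (le_centralizer_centralizer R)

theorem IsMinCL.card_eq [Finite P] {Q R : Subgroup P} (hQ : IsMinCL Q) (hR : IsMinCL R) :
    Nat.card Q = Nat.card R ∧
    Nat.card (Subgroup.centralizer (Q : Set P)) = Nat.card (Subgroup.centralizer (R : Set P)) := by
  obtain ⟨hQm, hQc⟩ := (isCLMax_iff Q).mp hQ.1
  obtain ⟨hRm, hRc⟩ := (isCLMax_iff R).mp hR.1
  have hsetQ := card_eq_of_coe_sup_eq_mul _ _ ((hQm.inf hRm).lattice hQm.centralizer).2.2.1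
  have hsetR := card_eq_of_coe_sup_eq_mul _ _ ((hQm.inf hRm).lattice hRm.centralizer).2.2.1
  rw [hQ.inf_sup_centralizer hR] at hsetQ
  have hR' := hR.inf_sup_centralizer hQ
  rw [inf_comm] at hR'
  rw [hR'] at hsetR
  have ht : (Q ⊓ R) ⊓ Subgroup.centralizer (Q : Set P) = (Q ⊓ R) ⊓ Subgroup.centralizer (R : Set P) := by
    apply le_antisymm (hQ.inf_centralizer_le hR)
    have := hR.inf_centralizer_le hQ
    rwa [inf_comm R Q] at this
  rw [ht] at hsetQ
  have hM := hQm.cdm_eq hRm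
  unfold cdm at hM
  set n := Nat.card (Q ⊓ R : Subgroup P)
  set q := Nat.card Q
  set r := Nat.card R
  set zq := Nat.card (Subgroup.centralizer (Q : Set P))
  set zr := Nat.card (Subgroup.centralizer (R : Set P))
  set t := Nat.card ((Q ⊓ R) ⊓ Subgroup.centralizer (R : Set P) : Subgroup P)
  have hn : 0 < n := Nat.card_pos
  have hzq : 0 < zq := Nat.card_pos
  have h1 : n * (zq * zq) = n * (zr * zr) := by
    calc n * (zq * zq) = (n * zq) * zq := by ring
      _ = (q * t) * zq := by rw [hsetQ]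
      _ = (q * zq) * t := by ring
      _ = (r * zr) * t := by rw [hM]
      _ = (r * t) * zr := by ring
      _ = (n * zr) * zr := by rw [hsetR]
      _ = n * (zr * zr) := by ring
  have h2 : zq * zq = zr * zr := Nat.eq_of_mul_eq_mul_left hn h1
  have h3 : zq = zr := Nat.mul_self_inj.mp h2
  refine ⟨?_, h3⟩
  rw [← h3] at hM
  exact Nat.eq_of_mul_eq_mul_right hzq hM

theorem clm_of_abelian {B : Subgroup P} (h : B ≤ Subgroup.centralizer (B : Set P)) :
    clm B = Nat.card B * Nat.card B := by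
  rw [clm_eq, inf_eq_left.mpr h]

theorem isMinimalCentrallyLarge_iff' [Finite P] (R : Subgroup P) :
    Cfsg.IsMinimalCentrallyLarge R ↔ IsMinCL R := isMinimalCentrallyLarge_iff R

theorem IsMinCL.iff_maxAbelian_of_abelian [Finite P] {Q : Subgroup P} (hQ : IsMinCL Q)
    (hab : Q ≤ Subgroup.centralizer (Q : Set P)) (X : Subgroup P) :
    IsMinCL X ↔ X ∈ Cfsg.maxAbelianSubgroups P := by
  have hle : ∀ B : Subgroup P, IsMulCommutative B → Nat.card B ≤ Nat.card Q := by
    intro B hB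
    have h := hQ.1 B
    rw [clm_of_abelian hab, clm_of_abelian (Subgroup.le_centralizer_iff_isMulCommutative.mpr hB)] at h
    exact Nat.mul_self_le_mul_self_iff.mp h
  constructor
  · intro hX
    have h1 := hX.commutator_eq hQ
    rw [Subgroup.commutator_eq_bot_iff_le_centralizer.mpr hab] at h1
    have h2 : X ≤ Subgroup.centralizer (X : Set P) := Subgroup.commutator_eq_bot_iff_le_centralizer.mp h1
    refine ⟨Subgroup.le_centralizer_iff_isMulCommutative.mp h2, fun B hB => ?_⟩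
    rw [(hX.card_eq hQ).1]
    exact hle B hB
  · intro hX
    have hXc := maxAbelian_le_centralizer hX
    have hcard : Nat.card X = Nat.card Q :=
      le_antisymm (hle X hX.1) (hX.2 Q (Subgroup.le_centralizer_iff_isMulCommutative.mp hab))
    have hclm : clm X = clm Q := by rw [clm_of_abelian hXc, clm_of_abelian hab, hcard]
    refine ⟨fun K => hclm ▸ hQ.1 K, fun R' hle' hR' => ?_⟩
    have hR'c : R' ≤ Subgroup.centralizer (R' : Set P) := (hle'.trans hXc).trans (centralizer_anti hle')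
    have h3 : clm X ≤ clm R' := hR' X
    rw [clm_of_abelian hXc, clm_of_abelian hR'c] at h3
    exact Subgroup.eq_of_le_of_card_ge hle' (Nat.mul_self_le_mul_self_iff.mp h3)

end Cfsg.Agent.Lib.Helper18
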