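import Mathlib

set_option autoImplicit false

namespace Cfsg.Agent.Lib.Helper18

/-- Maschke's theorem, group form: under a coprime action on a finite abelian group, a complemented
invariant subgroup has an invariant complement. -/
theorem maschke_grp {A V : Type*} [Group A] [Finite A] [Group V] [Finite V]
    (hc : ∀ x y : V, x * y = y * x) (ρ : A →* MulAut V)
    (hcop : (Nat.card A).Coprime (Nat.card V)) (U W : Subgroup V)
    (hU : ∀ a : A, ∀ u ∈ U, ρ a u ∈ U) (hUW : U ⊓ W = ⊥) (hUW' : U ⊔ W = ⊤) :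
    ∃ K : Subgroup V, (∀ a : A, ∀ k ∈ K, ρ a k ∈ K) ∧ U ⊓ K = ⊥ ∧ U ⊔ K = ⊤ := by
  classical
  let _ : CommGroup V := { (inferInstance : Group V) with mul_comm := hc }
  have _ : Fintype A := Fintype.ofFinite A
  -- the projection onto `U` along `W`
  let f : U →* V ⧸ W := (QuotientGroup.mk' W).comp U.subtype
  have hfinj : Function.Injective f := by
    rw [injective_iff_map_eq_one]
    intro u hu
    have h1 : (u : V) ∈ W := by
      have : ((u : V) : V ⧸ W) = 1 := hu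
      exact (QuotientGroup.eq_one_iff _).1 this
    have h2 : (u : V) ∈ U ⊓ W := ⟨u.2, h1⟩
    rw [hUW, Subgroup.mem_bot] at h2
    exact Subtype.ext h2
  have hfsurj : Function.Surjective f := by
    intro q
    obtain ⟨v, rfl⟩ := QuotientGroup.mk_surjective q
    have hv : v ∈ U ⊔ W := by rw [hUW']; trivial
    obtain ⟨u, hu, w, hw, rfl⟩ := Subgroup.mem_sup.1 hv
    refine ⟨⟨u, hu⟩, ?_⟩
    show ((u : V) : V ⧸ W) = ((u * w : V) : V ⧸ W)
    rw [QuotientGroup.eq]
    simpa using hw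
  let e : U ≃* V ⧸ W := MulEquiv.ofBijective f ⟨hfinj, hfsurj⟩
  let π : V →* V := U.subtype.comp (e.symm.toMonoidHom.comp (QuotientGroup.mk' W))
  have hπU : ∀ v, π v ∈ U := fun v => (e.symm (QuotientGroup.mk' W v)).2
  have hπu : ∀ u ∈ U, π u = u := by
    intro u hu
    have : e.symm (QuotientGroup.mk' W u) = ⟨u, hu⟩ := by
      rw [MulEquiv.symm_apply_eq]; rfl
    show ((e.symm (QuotientGroup.mk' W u) : U) : V) = u
    rw [this]
  let τ : V →* V := ∏ a : A, (ρ a).toMonoidHom.comp (π.comp (ρ a⁻¹).toMonoidHom)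
  have hτ : ∀ v, τ v = ∏ a : A, ρ a (π (ρ a⁻¹ v)) := by
    intro v
    show (∏ a : A, (ρ a).toMonoidHom.comp (π.comp (ρ a⁻¹).toMonoidHom)) v = _
    rw [MonoidHom.finsetProd_apply]
    rfl
  have hτU : ∀ v, τ v ∈ U := by
    intro v
    rw [hτ]
    exact Subgroup.prod_mem _ (fun a _ => hU a _ (hπU _))
  have hτu : ∀ u ∈ U, τ u = u ^ Nat.card A := by
    intro u hu
    rw [hτ]
    have : ∀ a : A, ρ a (π (ρ a⁻¹ u)) = u := by
      intro a
      rw [hπu _ (hU _ _ hu)]
      have : ρ a (ρ a⁻¹ u) = (ρ a * ρ a⁻¹) u := rfl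
      rw [this, ← map_mul, mul_inv_cancel, map_one]; rfl
    simp only [this]
    rw [Finset.prod_const, Finset.card_univ, Nat.card_eq_fintype_card]
  have hτeq : ∀ (b : A) (v : V), τ (ρ b v) = ρ b (τ v) := by
    intro b v
    rw [hτ, hτ, map_prod]
    refine (Fintype.prod_equiv (Equiv.mulLeft b) _ _ ?_).symm
    intro a
    show ρ b (ρ a (π (ρ a⁻¹ v))) = ρ (b * a) (π (ρ (b * a)⁻¹ (ρ b v)))
    have h1 : ρ (b * a)⁻¹ (ρ b v) = ρ a⁻¹ v := by
      have : ρ (b * a)⁻¹ (ρ b v) = (ρ (b * a)⁻¹ * ρ b) v := rfl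
      rw [this, ← map_mul]
      congr 2
      group
    rw [h1, map_mul]; rfl
  refine ⟨τ.ker, ?_, ?_, ?_⟩
  · intro a k hk
    rw [MonoidHom.mem_ker] at hk ⊢
    rw [hτeq, hk, map_one]
  · rw [eq_bot_iff]
    intro u hu
    obtain ⟨hu1, hu2⟩ := hu
    have hu2' : τ u = 1 := hu2
    rw [hτu u hu1] at hu2'
    rw [Subgroup.mem_bot]
    exact (powCoprime hcop.symm).injective (show u ^ Nat.card A = 1 ^ Nat.card A by rw [hu2', one_pow])
  · rw [eq_top_iff]
    intro v _
    have hcopU : (Nat.card U).Coprime (Nat.card A) :=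
      Nat.Coprime.coprime_dvd_left (Subgroup.card_subgroup_dvd_card U) hcop.symm
    obtain ⟨u0, hu0⟩ := (powCoprime hcopU).surjective ⟨τ v, hτU v⟩
    have hu0' : (u0 : V) ^ Nat.card A = τ v := by
      have := congrArg (fun z : U => (z : V)) hu0
      simpa using this
    have hk : (u0 : V)⁻¹ * v ∈ τ.ker := by
      rw [MonoidHom.mem_ker, map_mul, map_inv, hτu _ u0.2, hu0', inv_mul_cancel]
    have : v = (u0 : V) * ((u0 : V)⁻¹ * v) := by group
    rw [this]
    exact Subgroup.mul_mem_sup u0.2 hk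

end Cfsg.Agent.Lib.Helper18
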