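import Mathlib
import Cfsg.Prelude.Def_Local
import Cfsg.Agent.Lib.Helper13.PPrimeP
import Cfsg.Agent.Lib.Helper5.Card
import Cfsg.Agent.Lib.Helper1.Coprime
import Cfsg.Agent.S1302

set_option autoImplicit false

open scoped commutatorElement

namespace Cfsg.Agent.Lib.Helper18

/-- Invariant `p'`-subgroups of a `p`-constrained group lie in `O_{p'}`; the case `p = 2` under a
class-two hypothesis on `p`-subgroups. -/
theorem inv_le_pPrimeCore_two {X : Type*} [Group X] [Finite X] (p : ℕ) [Fact p.Prime] (hp : p = 2)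
    (hX : Cfsg.IsPConstrained p X) (A : Subgroup X) (hA : IsMulCommutative ↥A)
    (hAp : IsPGroup p ↥A)
    (hΩ : ∀ x ∈ Subgroup.centralizer (A : Set X), IsPGroup p (Subgroup.zpowers x) → x ∈ A)
    (h2 : p = 2 → ∀ x y z : X, IsPGroup p (Subgroup.closure {x, y, z}) → ⁅⁅x, y⁆, z⁆ = 1)
    (Q : Subgroup X) (hQ : ¬ p ∣ Nat.card ↥Q) (hAQ : A ≤ Subgroup.normalizer (Q : Set X)) :
    Q ≤ Cfsg.pPrimeCore p X := by
  classical
  open Subgroup Cfsg.Agent.Lib.Helper13 Cfsg.Agent.Lib.Helper5 Cfsg.Agent.Lib.Helper1 in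
  set K := Cfsg.pPrimeCore p X with hKdef
  set L := Cfsg.pPrimePCore p X with hLdef
  have hKn : K.Normal := inferInstance
  have hLn : L.Normal := Cfsg.Agent.Lib.Helper10.pPrimePCore_normal (X := X) p
  have hKcop : (Nat.card K).Coprime p := pPrimeCore_coprime
  have hpp : p.Prime := Fact.out
  have hQcop : (Nat.card Q).Coprime p := (Nat.Coprime.symm ((Nat.Prime.coprime_iff_not_dvd hpp).2 hQ))
  obtain ⟨S, hAS⟩ := hAp.exists_le_sylow
  set H : Subgroup X := (S : Subgroup X) ⊓ L with hH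
  have hHp : IsPGroup p H := S.2.to_le inf_le_left
  have hSH : (S : Subgroup X) ≤ normalizer (H : Set X) := by
    rw [le_normalizer_iff]
    intro a ha x hx
    exact mem_inf.2 ⟨mul_mem (mul_mem ha (mem_inf.1 hx).1) (inv_mem ha), hLn.conj_mem _ (mem_inf.1 hx).2 _⟩
  have hAH : A ≤ normalizer (H : Set X) := hAS.trans hSH
  -- the enlarged p'-group
  set Q' : Subgroup X := Q ⊔ K with hQ'
  have hQK : Q ≤ normalizer (K : Set X) := by rw [normalizer_eq_top]; exact le_top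
  have hQ'cop : (Nat.card Q').Coprime p := by
    have h1 := card_sup_mul_card_inf Q K hQK
    have h2 : (Nat.card Q * Nat.card K).Coprime p := Nat.Coprime.mul_left hQcop hKcop
    rw [← h1] at h2
    exact Nat.Coprime.coprime_mul_right h2
  have hAQ' : A ≤ normalizer (Q' : Set X) :=
    Cfsg.Agent.Lib.Helper17.le_normalizer_sup hAQ (by rw [normalizer_eq_top]; exact le_top)
  set Q₁ : Subgroup X := Q' ⊓ normalizer (H : Set X) with hQ₁
  have hQ₁cop : (Nat.card Q₁).Coprime p :=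
    Nat.Coprime.coprime_dvd_left (card_dvd_of_le inf_le_left) hQ'cop
  have hAQ₁ : A ≤ normalizer (Q₁ : Set X) := by
    rw [le_normalizer_iff]
    intro a ha x hx
    exact mem_inf.2 ⟨le_normalizer_iff.1 hAQ' a ha x (mem_inf.1 hx).1,
      mul_mem (mul_mem (hAH ha) (mem_inf.1 hx).2) (inv_mem (hAH ha))⟩
  have hdisj : H ⊓ Q₁ = ⊥ := disjoint_pGroup_coprime hHp hQ₁cop
  suffices hmain : Q₁ ≤ K by
    intro q hq
    obtain ⟨d, hd, hqd⟩ := pp_frattini S q
    have h1 : q * d ∈ Q₁ := ⟨mul_mem (mem_sup_left hq) (mem_sup_right hd), hqd⟩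
    have : q = q * d * d⁻¹ := by group
    rw [this]
    exact mul_mem (hmain h1) (inv_mem hd)
  have hHA : ∀ d ∈ H, d ∈ A → d ∈ centralizer (Q₁ : Set X) := by
    intro d hdH hdA'
    rw [mem_centralizer_iff]
    intro q hq
    have hm : q * d * q⁻¹ * d⁻¹ ∈ H ⊓ Q₁ := by
      rw [mem_inf]
      constructor
      · exact mul_mem (le_normalizer_iff.1 (le_refl _) q hq.2 d hdH) (inv_mem hdH)
      · have h1 := le_normalizer_iff.1 hAQ₁ d hdA' q⁻¹ (inv_mem hq)
        have : q * d * q⁻¹ * d⁻¹ = q * (d * q⁻¹ * d⁻¹) := by group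
        rw [this]
        exact mul_mem hq h1
    rw [hdisj, mem_bot] at hm
    calc q * d = q * d * q⁻¹ * d⁻¹ * (d * q) := by group
      _ = d * q := by rw [hm, one_mul]
  have hHCA : ∀ d ∈ H, d ∈ centralizer (A : Set X) → d ∈ A := fun d hd hdc =>
    hΩ d hdc (hHp.to_le (zpowers_le.2 hd))
  have hcomm : ∀ h ∈ H, ∀ a ∈ A, ⁅h, a⁆ ∈ H ∧ ⁅h, a⁆ ∈ A := by
    intro h hh a ha
    have h1 : ⁅h, a⁆ ∈ H := by
      rw [commutatorElement_def]
      have : h * a * h⁻¹ * a⁻¹ = h * (a * h⁻¹ * a⁻¹) := by group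
      rw [this]
      exact mul_mem hh (le_normalizer_iff.1 hAH a ha _ (inv_mem hh))
    refine ⟨h1, hHCA _ h1 ?_⟩
    rw [mem_centralizer_iff]
    intro b hb
    have h3 : ⁅⁅h, a⁆, b⁆ = 1 := by
      apply h2 hp
      apply S.2.to_le
      rw [closure_le]
      rintro x (rfl | rfl | rfl)
      · exact (mem_inf.1 hh).1
      · exact hAS ha
      · exact hAS hb
    exact (commutatorElement_eq_one_iff_mul_comm.1 h3).symm
  have hstep : ∀ k ∈ Q₁, ∀ a ∈ A, ⁅k, a⁆ ∈ centralizer (H : Set X) := by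
    intro k hk a ha
    have hg : ⁅k, a⁆ ∈ Q₁ := by
      rw [commutatorElement_def]
      have : k * a * k⁻¹ * a⁻¹ = k * (a * k⁻¹ * a⁻¹) := by group
      rw [this]
      exact mul_mem hk (le_normalizer_iff.1 hAQ₁ a ha _ (inv_mem hk))
    rw [mem_centralizer_iff]
    intro h hh
    set g := ⁅k, a⁆ with hgdef
    set z₁ := ⁅h⁻¹, a⁻¹⁆ with hz₁
    set h₂ := k⁻¹ * h * k with hh₂
    have hh₂H : h₂ ∈ H := by
      have := le_normalizer_iff.1 (le_refl _) k⁻¹ (inv_mem hk.2) h hh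
      simpa [hh₂] using this
    set z₂ := ⁅h₂⁻¹, a⁆ with hz₂
    obtain ⟨hz₁H, hz₁A⟩ := hcomm h⁻¹ (inv_mem hh) a⁻¹ (inv_mem ha)
    obtain ⟨hz₂H, hz₂A⟩ := hcomm h₂⁻¹ (inv_mem hh₂H) a ha
    have c1 : k * z₁ = z₁ * k := (mem_centralizer_iff.1 (hHA _ hz₁H hz₁A)) k hk
    have c2 : k * z₂ = z₂ * k := (mem_centralizer_iff.1 (hHA _ hz₂H hz₂A)) k hk
    have c3 : a * z₁ = z₁ * a := by
      have := hA.is_comm.comm (⟨a, ha⟩ : A) ⟨z₁, hz₁A⟩
      exact congrArg Subtype.val this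
    have e1 : a⁻¹ * h * a = h * z₁ := by
      rw [hz₁, commutatorElement_def]; group
    have e2 : k⁻¹ * z₁ * k = z₁ := by rw [mul_assoc, ← c1]; group
    have e3 : a * h₂ * a⁻¹ = h₂ * z₂ := by
      rw [hz₂, commutatorElement_def]; group
    have e4 : a * z₁ * a⁻¹ = z₁ := by rw [c3]; group
    have e5 : k * h₂ * k⁻¹ = h := by rw [hh₂]; group
    have e6 : k * z₂ * k⁻¹ = z₂ := by rw [c2]; group
    have e7 : k * z₁ * k⁻¹ = z₁ := by rw [c1]; group
    have key : g * h * g⁻¹ = h * (z₂ * z₁) := by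
      calc g * h * g⁻¹ = k * (a * (k⁻¹ * (a⁻¹ * h * a) * k) * a⁻¹) * k⁻¹ := by
            rw [hgdef, commutatorElement_def]; group
        _ = k * (a * (k⁻¹ * (h * z₁) * k) * a⁻¹) * k⁻¹ := by rw [e1]
        _ = k * (a * ((k⁻¹ * h * k) * (k⁻¹ * z₁ * k)) * a⁻¹) * k⁻¹ := by group
        _ = k * (a * (h₂ * z₁) * a⁻¹) * k⁻¹ := by rw [e2]
        _ = k * ((a * h₂ * a⁻¹) * (a * z₁ * a⁻¹)) * k⁻¹ := by group
        _ = k * ((h₂ * z₂) * z₁) * k⁻¹ := by rw [e3, e4]
        _ = (k * h₂ * k⁻¹) * (k * z₂ * k⁻¹) * (k * z₁ * k⁻¹) := by group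
        _ = h * (z₂ * z₁) := by rw [e5, e6, e7, mul_assoc]
    set ζ := z₂ * z₁ with hζ
    have hζH : ζ ∈ H := mul_mem hz₂H hz₁H
    have hζA : ζ ∈ A := mul_mem hz₂A hz₁A
    have c4 : g * ζ = ζ * g := (mem_centralizer_iff.1 (hHA _ hζH hζA)) g hg
    have hpow : ∀ n : ℕ, g ^ n * h * (g ^ n)⁻¹ = h * ζ ^ n := by
      intro n
      induction n with
      | zero => simp
      | succ n ih =>
        have c5 : g * ζ ^ n * g⁻¹ = ζ ^ n := by
          have : Commute g (ζ ^ n) := (show Commute g ζ from c4).pow_right n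
          rw [this.eq]; group
        calc g ^ (n + 1) * h * (g ^ (n + 1))⁻¹ = g * (g ^ n * h * (g ^ n)⁻¹) * g⁻¹ := by
              rw [pow_succ']; group
          _ = (g * h * g⁻¹) * (g * ζ ^ n * g⁻¹) := by rw [ih]; group
          _ = h * ζ ^ (n + 1) := by rw [key, c5, pow_succ', mul_assoc]
    have h5 := hpow (orderOf g)
    rw [pow_orderOf_eq_one] at h5
    have h6 : ζ ^ orderOf g = 1 := by
      have : h * 1 = h * ζ ^ orderOf g := by simpa using h5
      exact (mul_left_cancel this).symm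
    have h7 : orderOf g ∣ Nat.card Q₁ := by
      have := orderOf_dvd_natCard (⟨g, hg⟩ : Q₁)
      rwa [Subgroup.orderOf_mk] at this
    obtain ⟨m, hm⟩ := hHp ⟨ζ, hζH⟩
    have hm' : ζ ^ p ^ m = 1 := by
      have := congrArg Subtype.val hm
      simpa using this
    have hζ1 : ζ = 1 := by
      have hcop : (orderOf g).Coprime (p ^ m) :=
        Nat.Coprime.pow_right m (Nat.Coprime.coprime_dvd_left h7 hQ₁cop)
      exact orderOf_eq_one_iff.1 (Nat.eq_one_of_dvd_coprimes hcop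
        (orderOf_dvd_of_pow_eq_one h6) (orderOf_dvd_of_pow_eq_one hm'))
    rw [hζ1, mul_one] at key
    calc h * g = g * h * g⁻¹ * g := by rw [key]
      _ = g * h := by group
  have hQ₁H : Q₁ ≤ centralizer (H : Set X) := by
    have hK₁ : Q₁ ⊓ centralizer (A : Set X) ≤ centralizer (H : Set X) := by
      apply pq_lemma p A (Q₁ ⊓ centralizer (A : Set X)) hAp
        (Nat.Coprime.coprime_dvd_left (card_dvd_of_le inf_le_left) hQ₁cop)
        (le_centralizer_iff.1 inf_le_right) _ H rfl hHp hAH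
        (inf_le_left.trans inf_le_right)
      rintro d ⟨hdH, hdA⟩
      exact centralizer_le (show ((Q₁ ⊓ centralizer (A : Set X) : Subgroup X) : Set X) ⊆ Q₁ from
        fun x hx => hx.1) (hHA d hdH (hHCA d hdH hdA))
    have hfac := coprime_factor A Q₁ hAQ₁ (by
      obtain ⟨n, hn⟩ := IsPGroup.iff_card.mp hAp
      rw [hn]
      exact (Nat.Coprime.pow_right n hQ₁cop).symm) (Or.inl (isSolvable_of_isPGroup hAp))
    rw [← hfac]
    exact sup_le (commutator_le.2 hstep) hK₁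
  -- p-constraint
  have hsyl : ¬ p ∣ (H.subgroupOf L).index := pp_sylow S
  let PL : Sylow p L := (hHp.comap_subtype (K := L)).toSylow hsyl
  have hPL : ((PL : Subgroup L).map L.subtype : Subgroup X) = H := by
    show (H.subgroupOf L).map L.subtype = H
    rw [subgroupOf_map_subtype, inf_eq_left]
    exact inf_le_right
  have hCL : centralizer (H : Set X) ≤ L := by
    have := hX PL
    rwa [hPL] at this
  intro q hq
  obtain ⟨k, hk⟩ := pp_pow_mem q (hCL (hQ₁H hq))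
  have h2 : orderOf q ∣ Nat.card Q₁ := by
    have := orderOf_dvd_natCard (⟨q, hq⟩ : Q₁)
    rwa [Subgroup.orderOf_mk] at this
  have hcop : (orderOf q).Coprime (p ^ k) :=
    Nat.Coprime.pow_right k (Nat.Coprime.coprime_dvd_left h2 hQ₁cop)
  obtain ⟨m, hm⟩ := exists_pow_eq_self_of_coprime hcop.symm
  rw [← hm]
  exact pow_mem hk m


theorem inv_le_pPrimeCore {X : Type*} [Group X] [Finite X] (p : ℕ) [Fact p.Prime]
    (hX : Cfsg.IsPConstrained p X) (A : Subgroup X) (hA : IsMulCommutative ↥A)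
    (hAp : IsPGroup p ↥A)
    (hΩ : ∀ x ∈ Subgroup.centralizer (A : Set X), IsPGroup p (Subgroup.zpowers x) → x ∈ A)
    (h2 : p = 2 → ∀ x y z : X, IsPGroup p (Subgroup.closure {x, y, z}) → ⁅⁅x, y⁆, z⁆ = 1)
    (Q : Subgroup X) (hQ : ¬ p ∣ Nat.card ↥Q) (hAQ : A ≤ Subgroup.normalizer (Q : Set X)) :
    Q ≤ Cfsg.pPrimeCore p X := by
  by_cases hp : p = 2
  · exact inv_le_pPrimeCore_two p hp hX A hA hAp hΩ h2 Q hQ hAQ
  · refine Cfsg.Agent.S1302.result p hp hX A hA hAp (fun x hx ho => hΩ x hx ?_) Q hQ hAQ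
    apply IsPGroup.of_card (n := 1)
    rw [Nat.card_zpowers, ho, pow_one]

end Cfsg.Agent.Lib.Helper18
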