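import Mathlib
import Cfsg.Prelude.Def_OddOrderLocal
import Cfsg.Agent.S1480
import Cfsg.Agent.S3743

set_option autoImplicit false
set_option linter.unusedSectionVars false

open scoped commutatorElement Pointwise

namespace Cfsg.Agent.Lib.Helper18.Trans

open Subgroup Cfsg.Agent.Lib.Helper1 Cfsg.Agent.Lib.Helper9 Cfsg.Agent.S1480

variable {G : Type*} [Group G] [Finite G]

theorem coprime_of_pi {n m : ℕ} (h : ∀ r : ℕ, r.Prime → r ∣ m → r ∈ Cfsg.primesNotDvd n) :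
    n.Coprime m :=
  Nat.Coprime.symm (Nat.coprime_of_dvd fun k hk hkm hkn => (h k hk hkm).2 hkn)

theorem pi_of_le {π : Set ℕ} {U V : Subgroup G} (hUV : U ≤ V)
    (h : ∀ r : ℕ, r.Prime → r ∣ Nat.card V → r ∈ π) : ∀ r : ℕ, r.Prime → r ∣ Nat.card U → r ∈ π :=
  fun r hr hd => h r hr (hd.trans (card_dvd_of_le hUV))

theorem piCoreOf_pi (π : Set ℕ) (X : Subgroup G) :
    ∀ r : ℕ, r.Prime → r ∣ Nat.card (Cfsg.piCoreOf π X) → r ∈ π := by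
  intro r hr hd
  unfold Cfsg.piCoreOf at hd
  rw [card_map_of_injective X.subtype_injective] at hd
  exact (Cfsg.Agent.S3743.piCore_mem π X).2 r hr hd

theorem piCoreOf_le (π : Set ℕ) (X : Subgroup G) : Cfsg.piCoreOf π X ≤ X := map_subtype_le _

theorem le_normalizer_piCoreOf (π : Set ℕ) (X : Subgroup G) :
    X ≤ normalizer (Cfsg.piCoreOf π X : Set G) := by
  rw [le_normalizer_iff]
  rintro e he _ ⟨y, hy, rfl⟩
  have hn : (Cfsg.piCore π ↥X).Normal := inferInstance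
  exact ⟨_, hn.conj_mem y hy ⟨e, he⟩, rfl⟩

theorem le_piCoreOf (π : Set ℕ) {X Y : Subgroup G} (hYX : Y ≤ X)
    (hn : X ≤ normalizer (Y : Set G)) (hπ : ∀ r : ℕ, r.Prime → r ∣ Nat.card Y → r ∈ π) :
    Y ≤ Cfsg.piCoreOf π X := by
  have h1 : Y.subgroupOf X ≤ Cfsg.piCore π ↥X := by
    apply le_sSup
    refine ⟨(normal_subgroupOf_iff_le_normalizer hYX).2 hn, ?_⟩
    rwa [card_subgroupOf_of_le hYX]
  intro y hy
  exact ⟨⟨y, hYX hy⟩, h1 (mem_subgroupOf.2 hy), rfl⟩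

theorem normalizer_ne_top (hG : Cfsg.IsMinSimpleOddOrder G) {D : Subgroup G} (h1 : D ≠ ⊥)
    (h2 : D ≠ ⊤) : normalizer (D : Set G) ≠ ⊤ := by
  intro h
  have hn : D.Normal := normalizer_eq_top_iff.1 h
  have := hG.2.1
  rcases hn.eq_bot_or_eq_top with h3 | h3
  · exact h1 h3
  · exact h2 h3

theorem inv_le_core {A : Subgroup G} (hA : Cfsg.TransitivityHypothesis A) {X : Subgroup G}
    (hX : X ≠ ⊤) (hAX : A ≤ X) {U : Subgroup G} (hUX : U ≤ X)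
    (hU : ∀ r : ℕ, r.Prime → r ∣ Nat.card U → r ∈ Cfsg.primesNotDvd (Nat.card A))
    (hAU : A ≤ normalizer (U : Set G)) :
    U ≤ Cfsg.piCoreOf (Cfsg.primesNotDvd (Nat.card A)) X := by
  rw [← hA.2.2 X hX hAX]
  exact le_sSup ⟨hUX, hU, hAU⟩

/-- `π(A)'`-subgroups of `C_G(A)` lie in `O_{π(A)'}(C_G(A))`. -/
theorem le_K (hG : Cfsg.IsMinSimpleOddOrder G) {A : Subgroup G}
    (hA : Cfsg.TransitivityHypothesis A) {W : Subgroup G} (hW : W ≤ centralizer (A : Set G))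
    (hWπ : ∀ r : ℕ, r.Prime → r ∣ Nat.card W → r ∈ Cfsg.primesNotDvd (Nat.card A)) :
    W ≤ Cfsg.piCoreOf (Cfsg.primesNotDvd (Nat.card A)) (centralizer (A : Set G)) := by
  set π := Cfsg.primesNotDvd (Nat.card A) with hπ
  set X := normalizer (A : Set G) with hX
  have hXtop : X ≠ ⊤ := normalizer_ne_top hG hA.1 hA.2.1
  have hCX : centralizer (A : Set G) ≤ X := centralizer_le_normalizer _
  have hAW : A ≤ normalizer (W : Set G) :=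
    (le_centralizer_iff.1 hW).trans (centralizer_le_normalizer _)
  have h1 : W ≤ Cfsg.piCoreOf π X := inv_le_core hA hXtop le_normalizer (hW.trans hCX) hWπ hAW
  set Y := Cfsg.piCoreOf π X with hY
  have hYπ := piCoreOf_pi π X
  have hcop : (Nat.card A).Coprime (Nat.card Y) := coprime_of_pi hYπ
  have hdisj : A ⊓ Y = ⊥ := (disjoint_of_coprime_natCard hcop).eq_bot
  have hXY : X ≤ normalizer (Y : Set G) := le_normalizer_piCoreOf π X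
  have hYC : Y ≤ centralizer (A : Set G) := by
    intro y hy
    rw [mem_centralizer_iff]
    intro a ha
    have hm : a * y * a⁻¹ * y⁻¹ ∈ A ⊓ Y := by
      rw [mem_inf]
      constructor
      · have h3 := le_normalizer_iff.1 (le_refl X) y (piCoreOf_le π X hy) a⁻¹ (inv_mem ha)
        have : a * y * a⁻¹ * y⁻¹ = a * (y * a⁻¹ * y⁻¹) := by group
        rw [this]
        exact mul_mem ha h3
      · exact mul_mem (le_normalizer_iff.1 hXY a (le_normalizer ha) y hy) (inv_mem hy)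
    rw [hdisj, mem_bot] at hm
    calc a * y = a * y * a⁻¹ * y⁻¹ * (y * a) := by group
      _ = y * a := by rw [hm, one_mul]
  exact h1.trans (le_piCoreOf π hYC (hCX.trans hXY) hYπ)

theorem pi_of_qgroup {A : Subgroup G} {q : ℕ} [Fact q.Prime] (hqA : ¬ q ∣ Nat.card A)
    {U : Subgroup G} (hU : IsPGroup q U) :
    ∀ r : ℕ, r.Prime → r ∣ Nat.card U → r ∈ Cfsg.primesNotDvd (Nat.card A) := by
  intro r hr hd
  obtain ⟨n, hn⟩ := IsPGroup.iff_card.mp hU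
  rw [hn] at hd
  have : r = q := (Nat.prime_dvd_prime_iff_eq hr Fact.out).1 (hr.dvd_of_dvd_pow hd)
  rw [this]
  exact ⟨Fact.out, hqA⟩

/-- Two invariant `q`-subgroups of a proper overgroup of `A` embed in invariant `q`-subgroups that
are conjugate under `K`. -/
theorem core_step (hG : Cfsg.IsMinSimpleOddOrder G) {A : Subgroup G}
    (hA : Cfsg.TransitivityHypothesis A) {q : ℕ} [Fact q.Prime] (hqA : ¬ q ∣ Nat.card A)
    {X : Subgroup G} (hX : X ≠ ⊤) (hAX : A ≤ X) {V₁ V₂ : Subgroup G} (h₁ : V₁ ≤ X) (h₂ : V₂ ≤ X)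
    (hq₁ : IsPGroup q V₁) (hq₂ : IsPGroup q V₂) (hA₁ : A ≤ normalizer (V₁ : Set G))
    (hA₂ : A ≤ normalizer (V₂ : Set G)) :
    ∃ T₁ T₂ : Subgroup G, ∃ c ∈ Cfsg.piCoreOf (Cfsg.primesNotDvd (Nat.card A))
      (centralizer (A : Set G)), IsPGroup q T₁ ∧ IsPGroup q T₂ ∧ A ≤ normalizer (T₁ : Set G) ∧
      A ≤ normalizer (T₂ : Set G) ∧ V₁ ≤ T₁ ∧ V₂ ≤ T₂ ∧
      T₂ ≤ T₁.map (MulAut.conj c).toMonoidHom := by
  set π := Cfsg.primesNotDvd (Nat.card A) with hπ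
  set Z := Cfsg.piCoreOf π X with hZ
  have hZπ := piCoreOf_pi π X
  have hcop : (Nat.card A).Coprime (Nat.card Z) := coprime_of_pi hZπ
  have hAZ : A ≤ normalizer (Z : Set G) := hAX.trans (le_normalizer_piCoreOf π X)
  have hsolv : Group.IsSolvable A ∨ Group.IsSolvable Z :=
    Or.inr (isSolvable_of_le (piCoreOf_le π X) (hG.2.2.2 X hX))
  have hV₁Z : V₁ ≤ Z := inv_le_core hA hX hAX h₁ (pi_of_qgroup hqA hq₁) hA₁
  have hV₂Z : V₂ ≤ Z := inv_le_core hA hX hAX h₂ (pi_of_qgroup hqA hq₂) hA₂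
  obtain ⟨P₁, hVP₁, hEP₁⟩ := invariant_sylow_ge A Z hAZ hcop hsolv q _ V₁ rfl hV₁Z hq₁ hA₁
  obtain ⟨P₂, hVP₂, hEP₂⟩ := invariant_sylow_ge A Z hAZ hcop hsolv q _ V₂ rfl hV₂Z hq₂ hA₂
  obtain ⟨c, hcE, hcP⟩ := (invariant_sylow A Z hAZ hcop hsolv q).2 P₁ P₂ hEP₁ hEP₂
  refine ⟨(P₁ : Subgroup Z).map Z.subtype, (P₂ : Subgroup Z).map Z.subtype, c, ?_, P₁.2.map _,
    P₂.2.map _, hEP₁, hEP₂, hVP₁, hVP₂, ?_⟩
  · exact le_K hG hA (W := Z ⊓ centralizer (A : Set G)) inf_le_right (pi_of_le inf_le_left hZπ)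
      (mem_inf.2 ⟨c.2, hcE⟩)
  · rintro _ ⟨y, hy, rfl⟩
    rw [mem_cj]
    have h1 : y ∈ ((MulAut.conj c • P₁ : Sylow q Z) : Subgroup Z) := by rw [hcP]; exact hy
    rw [Sylow.pointwise_smul_def, mem_pointwise_smul_iff_inv_smul_mem] at h1
    refine ⟨_, h1, ?_⟩
    simp [MulAut.smul_def]

/-- the conjugacy relation under a subgroup `Kc` -/
def Rel (Kc : Subgroup G) (Q₁ Q₂ : Subgroup G) : Prop :=
  ∃ k ∈ Kc, Q₂ = Q₁.map (MulAut.conj k).toMonoidHom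

theorem Rel.symm {Kc Q₁ Q₂ : Subgroup G} (h : Rel Kc Q₁ Q₂) : Rel Kc Q₂ Q₁ := by
  obtain ⟨k, hk, rfl⟩ := h
  exact ⟨k⁻¹, inv_mem hk, by rw [cj_cj, inv_mul_cancel, cj_one]⟩

theorem Rel.trans {Kc Q₁ Q₂ Q₃ : Subgroup G} (h : Rel Kc Q₁ Q₂) (h' : Rel Kc Q₂ Q₃) :
    Rel Kc Q₁ Q₃ := by
  obtain ⟨k, hk, rfl⟩ := h
  obtain ⟨k', hk', rfl⟩ := h'
  exact ⟨k' * k, mul_mem hk' hk, by rw [cj_cj]⟩

theorem Rel.refl (Kc Q : Subgroup G) : Rel Kc Q Q := ⟨1, one_mem _, by rw [cj_one]⟩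

/-- One step: from the data of `core_step` and a way to relate maximal members sharing a subgroup
`V` satisfying `good V`. -/
theorem chain (hG : Cfsg.IsMinSimpleOddOrder G) {A : Subgroup G}
    (hA : Cfsg.TransitivityHypothesis A) {q : ℕ} [Fact q.Prime] (hqA : ¬ q ∣ Nat.card A)
    {X : Subgroup G} (hX : X ≠ ⊤) (hAX : A ≤ X) {Q₁ Q₂ V₁ V₂ : Subgroup G}
    (hQ₁ : Q₁ ∈ Cfsg.maxInvSubgroups ⊤ A {q}) (hQ₂ : Q₂ ∈ Cfsg.maxInvSubgroups ⊤ A {q})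
    (h₁ : V₁ ≤ X) (h₂ : V₂ ≤ X) (hV₁ : V₁ ≤ Q₁) (hV₂ : V₂ ≤ Q₂)
    (hA₁ : A ≤ normalizer (V₁ : Set G)) (hA₂ : A ≤ normalizer (V₂ : Set G))
    (ih : ∀ R₁ ∈ Cfsg.maxInvSubgroups ⊤ A {q}, ∀ R₂ ∈ Cfsg.maxInvSubgroups ⊤ A {q},
      (V₁ ≤ R₁ ∧ V₁ ≤ R₂ ∨ V₂ ≤ R₁ ∧ V₂ ≤ R₂) →
      Rel (Cfsg.piCoreOf (Cfsg.primesNotDvd (Nat.card A)) (centralizer (A : Set G))) R₁ R₂) :
    Rel (Cfsg.piCoreOf (Cfsg.primesNotDvd (Nat.card A)) (centralizer (A : Set G))) Q₁ Q₂ := by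
  obtain ⟨hq₁, -⟩ := (inv_iff A q Q₁).1 hQ₁.1
  obtain ⟨hq₂, -⟩ := (inv_iff A q Q₂).1 hQ₂.1
  obtain ⟨T₁, T₂, c, hc, hT₁, hT₂, hAT₁, hAT₂, hVT₁, hVT₂, hT₂₁⟩ :=
    core_step hG hA hqA hX hAX h₁ h₂ (hq₁.to_le hV₁) (hq₂.to_le hV₂) hA₁ hA₂
  obtain ⟨R₁, hR₁, hTR₁⟩ := exists_max A q ((inv_iff A q T₁).2 ⟨hT₁, hAT₁⟩)
  obtain ⟨R₂, hR₂, hTR₂⟩ := exists_max A q ((inv_iff A q T₂).2 ⟨hT₂, hAT₂⟩)
  have hcC : c ∈ centralizer (A : Set G) := piCoreOf_le _ _ hc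
  have s1 := ih Q₁ hQ₁ R₁ hR₁ (Or.inl ⟨hV₁, hVT₁.trans hTR₁⟩)
  have s2 : Rel (Cfsg.piCoreOf (Cfsg.primesNotDvd (Nat.card A)) (centralizer (A : Set G))) R₁
      (R₁.map (MulAut.conj c).toMonoidHom) := ⟨c, hc, rfl⟩
  have s3 := ih _ (maxInv_cj A q hcC hR₁) R₂ hR₂
    (Or.inr ⟨(hVT₂.trans hT₂₁).trans (map_mono hTR₁), hVT₂.trans hTR₂⟩)
  have s4 := ih R₂ hR₂ Q₂ hQ₂ (Or.inr ⟨hVT₂.trans hTR₂, hV₂⟩)
  exact ((s1.trans s2).trans s3).trans s4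

theorem rel_of_inf_ne_bot (hG : Cfsg.IsMinSimpleOddOrder G) {A : Subgroup G}
    (hA : Cfsg.TransitivityHypothesis A) {q : ℕ} [Fact q.Prime] (hqA : ¬ q ∣ Nat.card A) :
    ∀ n : ℕ, ∀ Q₁ ∈ Cfsg.maxInvSubgroups ⊤ A {q}, ∀ Q₂ ∈ Cfsg.maxInvSubgroups ⊤ A {q},
      Q₁ ⊓ Q₂ ≠ ⊥ → Nat.card G - Nat.card (Q₁ ⊓ Q₂ : Subgroup G) = n →
      Rel (Cfsg.piCoreOf (Cfsg.primesNotDvd (Nat.card A)) (centralizer (A : Set G))) Q₁ Q₂ := by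
  intro n
  induction n using Nat.strong_induction_on with
  | _ n ih =>
  intro Q₁ hQ₁ Q₂ hQ₂ hne hn
  by_cases hQQ : Q₁ = Q₂
  · rw [hQQ]; exact Rel.refl _ _
  set D := Q₁ ⊓ Q₂ with hD
  obtain ⟨hq₁, hE₁⟩ := (inv_iff A q Q₁).1 hQ₁.1
  obtain ⟨hq₂, hE₂⟩ := (inv_iff A q Q₂).1 hQ₂.1
  have hD₁ : D ≠ Q₁ := fun h => hQQ (hQ₁.2 Q₂ hQ₂.1 (inf_eq_left.1 h)).symm
  have hD₂ : D ≠ Q₂ := fun h => hQQ (hQ₂.2 Q₁ hQ₁.1 (inf_eq_right.1 h))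
  have hDtop : D ≠ ⊤ := by
    intro h
    apply hD₁
    rw [h]
    exact (top_le_iff.1 (h ▸ inf_le_left)).symm
  have hAD : A ≤ normalizer (D : Set G) := le_normalizer_inf hE₁ hE₂
  have hAND : A ≤ normalizer ((normalizer (D : Set G) : Subgroup G) : Set G) :=
    hAD.trans le_normalizer
  have hlt : ∀ Q : Subgroup G, IsPGroup q Q → D ≤ Q → D ≠ Q → D < normalizer (D : Set G) ⊓ Q := by
    intro Q hQ hDQ hne'
    obtain ⟨x, hxQ, hxN, hxD⟩ := normalizer_growth hQ hDQ hne'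
    exact lt_of_le_of_ne (le_inf le_normalizer hDQ) fun h => hxD (h ▸ mem_inf.2 ⟨hxN, hxQ⟩)
  have hlt₁ := hlt Q₁ hq₁ inf_le_left hD₁
  have hlt₂ := hlt Q₂ hq₂ inf_le_right hD₂
  refine chain hG hA hqA (normalizer_ne_top hG hne hDtop) hAD hQ₁ hQ₂
    (V₁ := normalizer (D : Set G) ⊓ Q₁) (V₂ := normalizer (D : Set G) ⊓ Q₂) inf_le_left inf_le_left
    inf_le_right inf_le_right (le_normalizer_inf hAND hE₁) (le_normalizer_inf hAND hE₂) ?_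
  have key : ∀ R₁ ∈ Cfsg.maxInvSubgroups ⊤ A {q}, ∀ R₂ ∈ Cfsg.maxInvSubgroups ⊤ A {q},
      ∀ V : Subgroup G, D < V → V ≤ R₁ → V ≤ R₂ →
      Rel (Cfsg.piCoreOf (Cfsg.primesNotDvd (Nat.card A)) (centralizer (A : Set G))) R₁ R₂ := by
    intro R₁ hR₁ R₂ hR₂ V hDV h1 h2
    have h3 : Nat.card D < Nat.card V := card_lt_of_lt hDV
    have h4 : Nat.card V ≤ Nat.card (R₁ ⊓ R₂ : Subgroup G) := card_le_of_le (le_inf h1 h2)
    have h5 : Nat.card (R₁ ⊓ R₂ : Subgroup G) ≤ Nat.card G := card_le_card_group _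
    refine ih _ (by omega) R₁ hR₁ R₂ hR₂ ?_ rfl
    intro hbot
    rw [hbot, card_bot] at h4
    have : 0 < Nat.card D := Nat.card_pos
    omega
  rintro R₁ hR₁ R₂ hR₂ (⟨h1, h2⟩ | ⟨h1, h2⟩)
  · exact key R₁ hR₁ R₂ hR₂ _ hlt₁ h1 h2
  · exact key R₁ hR₁ R₂ hR₂ _ hlt₂ h1 h2

theorem rel_of_overgroup (hG : Cfsg.IsMinSimpleOddOrder G) {A : Subgroup G}
    (hA : Cfsg.TransitivityHypothesis A) {q : ℕ} [Fact q.Prime] (hqA : ¬ q ∣ Nat.card A)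
    {Q₁ Q₂ : Subgroup G} (hQ₁ : Q₁ ∈ Cfsg.maxInvSubgroups ⊤ A {q})
    (hQ₂ : Q₂ ∈ Cfsg.maxInvSubgroups ⊤ A {q}) {H : Subgroup G} (hH : H ≠ ⊤) (hAH : A ≤ H)
    (hH₁ : H ⊓ Q₁ ≠ ⊥) (hH₂ : H ⊓ Q₂ ≠ ⊥) :
    Rel (Cfsg.piCoreOf (Cfsg.primesNotDvd (Nat.card A)) (centralizer (A : Set G))) Q₁ Q₂ := by
  obtain ⟨hq₁, hE₁⟩ := (inv_iff A q Q₁).1 hQ₁.1
  obtain ⟨hq₂, hE₂⟩ := (inv_iff A q Q₂).1 hQ₂.1
  have hAH' : A ≤ normalizer (H : Set G) := hAH.trans le_normalizer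
  refine chain hG hA hqA hH hAH hQ₁ hQ₂ (V₁ := H ⊓ Q₁) (V₂ := H ⊓ Q₂) inf_le_left inf_le_left
    inf_le_right inf_le_right (le_normalizer_inf hAH' hE₁) (le_normalizer_inf hAH' hE₂) ?_
  rintro R₁ hR₁ R₂ hR₂ (⟨h1, h2⟩ | ⟨h1, h2⟩)
  · exact rel_of_inf_ne_bot hG hA hqA _ R₁ hR₁ R₂ hR₂
      (fun h => hH₁ (le_bot_iff.1 (h ▸ le_inf h1 h2))) rfl
  · exact rel_of_inf_ne_bot hG hA hqA _ R₁ hR₁ R₂ hR₂
      (fun h => hH₂ (le_bot_iff.1 (h ▸ le_inf h1 h2))) rfl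

theorem centralizer_singleton_ne_top (hG : Cfsg.IsMinSimpleOddOrder G) {a : G} (ha : a ≠ 1) :
    centralizer ({a} : Set G) ≠ ⊤ := by
  intro h
  have hc : a ∈ center G := by
    rw [mem_center_iff]
    intro g
    have : g ∈ centralizer ({a} : Set G) := h ▸ mem_top g
    exact ((mem_centralizer_iff.1 this) a rfl).symm
  have := hG.2.1
  rcases (inferInstance : (center G).Normal).eq_bot_or_eq_top with h3 | h3
  · rw [h3, mem_bot] at hc; exact ha hc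
  · apply hG.2.2.1
    refine ⟨⟨fun x y => ?_⟩⟩
    have : x ∈ center G := h3 ▸ mem_top x
    exact (mem_center_iff.1 this y).symm

/-- extraction of an elementary abelian subgroup from a lower bound on the rank -/
theorem exists_elem_of_not_rankLE {Z : Subgroup G} {k : ℕ} (hZ : ¬ Cfsg.RankLE k ↥Z) :
    ∃ p : ℕ, p.Prime ∧ ∃ E₀ : Subgroup G, E₀ ≤ Z ∧ Cfsg.IsElementaryAbelian p E₀ ∧
      p ^ (k + 1) ≤ Nat.card E₀ := by
  unfold Cfsg.RankLE Cfsg.PRankLE at hZ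
  push Not at hZ
  obtain ⟨p, hp, A₀, hA₀c, hA₀e, hA₀⟩ := hZ
  have := Fact.mk hp
  refine ⟨p, hp, A₀.map Z.subtype, map_subtype_le _, ⟨?_, ?_⟩, ?_⟩
  · refine ⟨⟨?_⟩⟩
    rintro ⟨_, x, hx, rfl⟩ ⟨_, y, hy, rfl⟩
    apply Subtype.ext
    have := hA₀c.is_comm.comm (⟨x, hx⟩ : A₀) ⟨y, hy⟩
    exact congrArg (fun z : A₀ => ((z : Z) : G)) this
  · rintro _ ⟨a, ha, rfl⟩
    have := congrArg Subtype.val (hA₀e a ha)
    simpa using this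
  · rw [card_map_of_injective Z.subtype_injective]
    have hpg : IsPGroup p A₀ := fun a => ⟨1, by
      apply Subtype.ext
      simpa using hA₀e a a.2⟩
    obtain ⟨n, hn⟩ := IsPGroup.iff_card.mp hpg
    rw [hn] at hA₀ ⊢
    have : k < n := (Nat.pow_lt_pow_iff_right hp.one_lt).1 hA₀
    exact Nat.pow_le_pow_right hp.pos this

end Cfsg.Agent.Lib.Helper18.Trans
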