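import Mathlib
import Cfsg.Prelude.Def_Local
import Cfsg.Prelude.Def_OddOrderLocal
import Cfsg.Agent.S0028
import Cfsg.Agent.Lib.Helper1.Coprime
import Cfsg.Agent.Lib.Helper5.PCore
import Cfsg.Agent.Lib.Helper13.Balance
import Cfsg.Agent.Lib.Helper18.Trans

set_option autoImplicit false

namespace Cfsg.Agent.Lib.Helper18.PCentCore

open Subgroup
open scoped commutatorElement

/-- Let `H` be `p`-constrained (quotient form), `P` a `p`-subgroup and `D` a `p'`-subgroup of `C_H(P)`
normalized by `C_H(P)`. Then `D ≤ O_{p'}(H)`. -/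
theorem le_pPrimeCore_of_cent {H : Type*} [Group H] [Finite H] (p : ℕ) [Fact p.Prime]
    (hcon : centralizer (Cfsg.pCore p (H ⧸ Cfsg.pPrimeCore p H) : Set (H ⧸ Cfsg.pPrimeCore p H))
      ≤ Cfsg.pCore p (H ⧸ Cfsg.pPrimeCore p H))
    (P : Subgroup H) (hP : IsPGroup p P) (D : Subgroup H) (hDP : D ≤ centralizer (P : Set H))
    (hD : (Nat.card D).Coprime p)
    (hnorm : centralizer (P : Set H) ≤ normalizer (D : Set H)) :
    D ≤ Cfsg.pPrimeCore p H := by
  classical
  set N := Cfsg.pPrimeCore p H with hN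
  set π := QuotientGroup.mk' N with hπ
  set R := Cfsg.pCore p (H ⧸ N) with hR
  have hRn : R.Normal := Cfsg.pCore_normal p _
  have hRp : IsPGroup p R := Cfsg.Agent.Lib.Helper5.pCore_isPGroup
  have hNcop : (Nat.card N).Coprime p := Cfsg.Agent.Lib.Helper5.pPrimeCore_coprime
  have hDbar : (Nat.card (D.map π)).Coprime p :=
    Nat.Coprime.coprime_dvd_left (Subgroup.card_map_dvd D π) hD
  have hdisj : R ⊓ D.map π = ⊥ := by
    obtain ⟨k, hk⟩ := IsPGroup.iff_card.mp hRp
    have : (Nat.card R).Coprime (Nat.card (D.map π)) := by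
      rw [hk]; exact (Nat.Coprime.pow_right k hDbar).symm
    exact (Subgroup.disjoint_of_coprime_natCard this).eq_bot
  have key : D.map π ≤ centralizer (R : Set (H ⧸ N)) := by
    apply Cfsg.Agent.S0028.result p (P.map π) (D.map π) R (hP.map π) hDbar hRp
    · rw [map_le_iff_le_comap]
      intro x hx
      change π x ∈ centralizer ((D.map π : Subgroup (H ⧸ N)) : Set (H ⧸ N))
      rw [mem_centralizer_iff]
      rintro _ ⟨d, hd, rfl⟩
      rw [← map_mul, ← map_mul, (mem_centralizer_iff.1 (hDP hd) x hx)]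
    · rw [normalizer_eq_top]; exact le_top
    · rw [normalizer_eq_top]; exact le_top
    · rintro rb ⟨hrR, hrx⟩
      obtain ⟨r, rfl⟩ := QuotientGroup.mk'_surjective N rb
      obtain ⟨y, hyC, hy1⟩ := Cfsg.Agent.Lib.Helper1.coset_fixed_point P N le_normalizer_of_normal
        (Cfsg.Agent.Lib.Helper1.coprime_card_of_isPGroup hNcop hP).symm
        (Or.inl (Cfsg.Agent.Lib.Helper1.isSolvable_of_isPGroup hP)) r (by
          intro a ha
          apply (QuotientGroup.eq_one_iff _).mp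
          change π (r⁻¹ * (a * r * a⁻¹)) = 1
          have : π a * π r = π r * π a := mem_centralizer_iff.1 hrx (π a) ⟨a, ha, rfl⟩
          rw [map_mul, map_mul, map_mul, map_inv, map_inv, this, mul_inv_cancel_right,
            inv_mul_cancel])
      have hyr : π y = π r := by
        have : π (r⁻¹ * y) = 1 := (QuotientGroup.eq_one_iff _).mpr hy1
        rw [map_mul, map_inv, inv_mul_eq_one] at this
        exact this.symm
      rw [mem_centralizer_iff]
      rintro _ ⟨d, hd, rfl⟩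
      have h1 : ⁅y, d⁆ ∈ D := by
        rw [commutatorElement_def]
        exact D.mul_mem (le_normalizer_iff.1 hnorm y hyC d hd) (D.inv_mem hd)
      have h2 : π ⁅y, d⁆ ∈ R := by
        rw [map_commutatorElement, hyr, commutatorElement_def, mul_assoc, mul_assoc]
        rw [← mul_assoc (π d)]
        exact R.mul_mem hrR (hRn.conj_mem _ (R.inv_mem hrR) _)
      have h3 : π ⁅y, d⁆ ∈ R ⊓ D.map π := ⟨h2, ⟨_, h1, rfl⟩⟩
      rw [hdisj, mem_bot, map_commutatorElement, hyr,
        commutatorElement_eq_one_iff_mul_comm] at h3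
      exact h3.symm
  have hbot : D.map π ≤ ⊥ := by
    rw [← hdisj]
    exact le_inf (key.trans hcon) le_rfl
  intro d hd
  have : π d ∈ (⊥ : Subgroup (H ⧸ N)) := hbot ⟨d, hd, rfl⟩
  exact (QuotientGroup.eq_one_iff d).mp (mem_bot.mp this)

variable {G : Type*} [Group G]

/-- subgroup form for a solvable subgroup `Y`. -/
theorem le_pPrimeCoreOf [Finite G] (p : ℕ) [Fact p.Prime] (Y : Subgroup G)
    (hY : Group.IsSolvable Y) (P : Subgroup G) (hPY : P ≤ Y) (hP : IsPGroup p P) (D : Subgroup G)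
    (hDY : D ≤ Y) (hDP : D ≤ centralizer (P : Set G)) (hD : (Nat.card D).Coprime p)
    (hnorm : Y ⊓ centralizer (P : Set G) ≤ normalizer (D : Set G)) :
    D ≤ (Cfsg.pPrimeCore p Y).map Y.subtype := by
  have h := le_pPrimeCore_of_cent (H := Y) p (Cfsg.Agent.Lib.Helper13.constrained_of_solvable Y p)
    (P.subgroupOf Y) (hP.comap_subtype) (D.subgroupOf Y)
    (by
      intro d hd
      rw [mem_centralizer_iff]
      intro x hx
      exact Subtype.ext (mem_centralizer_iff.1 (hDP hd) x.1 hx))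
    (by rwa [Nat.card_congr (subgroupOfEquivOfLe hDY).toEquiv])
    (by
      rw [le_normalizer_iff]
      intro c hc d hd
      refine le_normalizer_iff.1 hnorm c.1 (mem_inf.2 ⟨c.2, ?_⟩) d.1 hd
      rw [mem_centralizer_iff]
      intro x hx
      exact congrArg Subtype.val (mem_centralizer_iff.1 hc ⟨x, hPY hx⟩ hx))
  intro d hd
  exact ⟨⟨d, hDY hd⟩, h hd, rfl⟩

theorem normalizer_le_normalizer_centralizer (X : Subgroup G) :
    normalizer (X : Set G) ≤ normalizer (centralizer (X : Set G) : Set G) := by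
  rw [le_normalizer_iff]
  intro g hg c hc
  rw [mem_centralizer_iff]
  intro a ha
  have h0 : g⁻¹ * a * g⁻¹⁻¹ ∈ X := le_normalizer_iff.1 (le_refl _) g⁻¹ (inv_mem hg) a ha
  have h1 := (mem_centralizer_iff.1 hc) _ h0
  calc a * (g * c * g⁻¹) = g * ((g⁻¹ * a * g⁻¹⁻¹) * c) * g⁻¹ := by group
    _ = g * (c * (g⁻¹ * a * g⁻¹⁻¹)) * g⁻¹ := by rw [h1]
    _ = g * c * g⁻¹ * a := by group

theorem normalizer_le_normalizer_piCoreOf [Finite G] (π : Set ℕ) (X : Subgroup G) :
    normalizer (X : Set G) ≤ normalizer (Cfsg.piCoreOf π X : Set G) := by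
  rw [le_normalizer_iff]
  intro g hg k hk
  set K := Cfsg.piCoreOf π X with hK
  have h1 : K.map (MulAut.conj g).toMonoidHom ≤ Cfsg.piCoreOf π X := by
    apply Cfsg.Agent.Lib.Helper18.Trans.le_piCoreOf
    · rintro _ ⟨y, hy, rfl⟩
      exact le_normalizer_iff.1 (le_refl _) g hg y (Cfsg.Agent.Lib.Helper18.Trans.piCoreOf_le π X hy)
    · rw [le_normalizer_iff]
      rintro x hx _ ⟨y, hy, rfl⟩
      have hx' : g⁻¹ * x * g⁻¹⁻¹ ∈ X := le_normalizer_iff.1 (le_refl _) g⁻¹ (inv_mem hg) x hx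
      refine ⟨(g⁻¹ * x * g⁻¹⁻¹) * y * (g⁻¹ * x * g⁻¹⁻¹)⁻¹,
        le_normalizer_iff.1 (Cfsg.Agent.Lib.Helper18.Trans.le_normalizer_piCoreOf π X) _ hx' y hy, ?_⟩
      simp only [MulEquiv.coe_toMonoidHom, MulAut.conj_apply]
      group
    · intro r hr hd
      rw [card_map_of_injective (MulAut.conj g).injective] at hd
      exact Cfsg.Agent.Lib.Helper18.Trans.piCoreOf_pi π X r hr hd
  exact h1 ⟨k, hk, rfl⟩

end Cfsg.Agent.Lib.Helper18.PCentCore
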