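import Mathlib
import Cfsg.Prelude.Def_SylowChains

set_option autoImplicit false

namespace Cfsg.Agent.Lib.Helper18

open Cfsg

variable {G : Type*} [Group G] {p : ℕ}

/-- adjacency of Sylow subgroups -/
def SylAdj (S T : Sylow p G) : Prop := S ≠ T ∧ (S : Subgroup G) ⊓ (T : Subgroup G) ≠ ⊥

theorem SylAdj.symm {S T : Sylow p G} (h : SylAdj S T) : SylAdj T S :=
  ⟨h.1.symm, by rw [inf_comm]; exact h.2⟩

theorem sylConn_symm {S T : Sylow p G} (h : Relation.ReflTransGen SylAdj S T) :
    Relation.ReflTransGen SylAdj T S := by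
  induction h with
  | refl => exact Relation.ReflTransGen.refl
  | tail _ b c => exact c.head (SylAdj.symm b)

theorem chain_of_sylConn {S T : Sylow p G} (h : Relation.ReflTransGen SylAdj S T) :
    ∃ (n : ℕ) (c : Fin (n + 1) → Sylow p G), c 0 = S ∧ c (Fin.last n) = T ∧
      ∀ i : Fin n, SylAdj (c i.castSucc) (c i.succ) := by
  induction h using Relation.ReflTransGen.head_induction_on with
  | refl => exact ⟨0, fun _ => T, rfl, rfl, fun i => i.elim0⟩
  | @head a b hab _ ih =>
    obtain ⟨n, c, h0, hl, hs⟩ := ih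
    refine ⟨n + 1, Fin.cons a c, rfl, ?_, ?_⟩
    · rw [← Fin.succ_last, Fin.cons_succ]; exact hl
    · intro i
      refine Fin.cases ?_ (fun j => ?_) i
      · rw [Fin.castSucc_zero, Fin.cons_zero, Fin.cons_succ, h0]; exact hab
      · rw [← Fin.succ_castSucc, Fin.cons_succ, Fin.cons_succ]; exact hs j

theorem sylConn_of_chain {n : ℕ} (c : Fin (n + 1) → Sylow p G)
    (hs : ∀ i : Fin n, SylAdj (c i.castSucc) (c i.succ)) (i : Fin (n + 1)) :
    Relation.ReflTransGen SylAdj (c 0) (c i) := by
  induction i using Fin.induction with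
  | zero => exact Relation.ReflTransGen.refl
  | succ j ih => exact ih.tail (hs j)

theorem isSylowChainConnected_iff :
    IsSylowChainConnected p G ↔ ∀ S T : Sylow p G, Relation.ReflTransGen SylAdj S T := by
  constructor
  · intro h S T
    obtain ⟨n, c, h0, hl, -, hs⟩ := h S T
    have := sylConn_of_chain c hs (Fin.last n)
    rwa [h0, hl] at this
  · intro h S T
    by_cases hST : S = T
    · subst hST
      exact ⟨0, fun _ => S, rfl, rfl, fun _ => inf_le_left, fun i => i.elim0⟩
    by_cases hbot : (S : Subgroup G) ⊓ (T : Subgroup G) = ⊥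
    · obtain ⟨n, c, h0, hl, hs⟩ := chain_of_sylConn (h S T)
      exact ⟨n, c, h0, hl, fun i => by rw [hbot]; exact bot_le, hs⟩
    · refine ⟨1, ![S, T], rfl, rfl, ?_, ?_⟩
      · intro i
        fin_cases i
        · exact inf_le_left
        · exact inf_le_right
      · intro i
        fin_cases i
        exact ⟨hST, hbot⟩

theorem SylAdj.smul {S T : Sylow p G} (h : SylAdj S T) (g : G) : SylAdj (g • S) (g • T) := by
  refine ⟨fun e => h.1 (smul_left_cancel g e), ?_⟩
  obtain ⟨⟨x, hx⟩, hx1⟩ := Subgroup.ne_bot_iff_exists_ne_one.1 h.2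
  obtain ⟨hxS, hxT⟩ := Subgroup.mem_inf.1 hx
  intro hbot
  have hmem : g * x * g⁻¹ ∈ ((g • S : Sylow p G) : Subgroup G) ⊓ ((g • T : Sylow p G) : Subgroup G) := by
    refine Subgroup.mem_inf.2 ⟨?_, ?_⟩
    · rw [Sylow.coe_subgroup_smul]
      exact (Subgroup.mem_smul_pointwise_iff_exists _ _ _).2 ⟨x, hxS, rfl⟩
    · rw [Sylow.coe_subgroup_smul]
      exact (Subgroup.mem_smul_pointwise_iff_exists _ _ _).2 ⟨x, hxT, rfl⟩
  rw [hbot, Subgroup.mem_bot] at hmem
  apply hx1
  apply Subtype.ext
  show x = 1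
  have : x = g⁻¹ * (g * x * g⁻¹) * g := by group
  rw [this, hmem]; group

theorem sylConn_smul {S T : Sylow p G} (h : Relation.ReflTransGen SylAdj S T) (g : G) :
    Relation.ReflTransGen SylAdj (g • S) (g • T) :=
  Relation.ReflTransGen.lift (fun S => g • S) (fun _ _ h => SylAdj.smul h g) _ _ h

/-- stabilizer of the connected component of `P` -/
def compStab (P : Sylow p G) : Subgroup G where
  carrier := {g | Relation.ReflTransGen SylAdj P (g • P)}
  one_mem' := by
    show Relation.ReflTransGen SylAdj P ((1 : G) • P)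
    rw [one_smul]
  mul_mem' := by
    intro a b ha hb
    show Relation.ReflTransGen SylAdj P ((a * b) • P)
    rw [mul_smul]
    exact Relation.ReflTransGen.trans ha (sylConn_smul hb a)
  inv_mem' := by
    intro a ha
    show Relation.ReflTransGen SylAdj P (a⁻¹ • P)
    have := sylConn_smul (sylConn_symm ha) a⁻¹
    rwa [inv_smul_smul] at this

theorem mem_compStab {P : Sylow p G} {g : G} :
    g ∈ compStab P ↔ Relation.ReflTransGen SylAdj P (g • P) := Iff.rfl

theorem mem_smul_sylow {P : Sylow p G} {g x : G} :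
    x ∈ ((g • P : Sylow p G) : Subgroup G) ↔ g⁻¹ * x * g ∈ (P : Subgroup G) := by
  rw [Sylow.coe_subgroup_smul, Subgroup.mem_pointwise_smul_iff_inv_smul_mem]
  simp [MulAut.smul_def]

theorem mem_compStab_of_inf_ne_bot {P : Sylow p G} {g : G}
    (h : (P : Subgroup G) ⊓ ((g • P : Sylow p G) : Subgroup G) ≠ ⊥) : g ∈ compStab P := by
  rw [mem_compStab]
  by_cases he : P = g • P
  · rw [← he]
  · exact Relation.ReflTransGen.single ⟨he, h⟩

theorem normalizer_le_compStab {P : Sylow p G} {X : Subgroup G} (hX : X ≤ (P : Subgroup G))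
    (hX1 : X ≠ ⊥) : Subgroup.normalizer (X : Set G) ≤ compStab P := by
  intro g hg
  apply mem_compStab_of_inf_ne_bot
  obtain ⟨⟨x, hx⟩, hx1⟩ := Subgroup.ne_bot_iff_exists_ne_one.1 hX1
  intro hbot
  have hmem : x ∈ (P : Subgroup G) ⊓ ((g • P : Sylow p G) : Subgroup G) := by
    refine Subgroup.mem_inf.2 ⟨hX hx, ?_⟩
    rw [mem_smul_sylow]
    apply hX
    have := (Subgroup.mem_normalizer_iff.1 (Subgroup.inv_mem _ hg) x).1 hx
    simpa using this
  rw [hbot, Subgroup.mem_bot] at hmem
  exact hx1 (Subtype.ext hmem)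

theorem le_compStab (P : Sylow p G) : (P : Subgroup G) ≤ compStab P := by
  intro g hg
  rw [mem_compStab, Sylow.smul_eq_of_normal_aux hg]
where
  Sylow.smul_eq_of_normal_aux {g : G} (hg : g ∈ (P : Subgroup G)) : g • P = P :=
    Sylow.smul_eq_iff_mem_normalizer.2 (Subgroup.le_normalizer hg)

theorem sylConn_of_compStab_eq_top [Finite G] [Fact p.Prime] {P : Sylow p G}
    (h : compStab P = ⊤) : IsSylowChainConnected p G := by
  rw [isSylowChainConnected_iff]
  intro S T
  obtain ⟨a, rfl⟩ := MulAction.exists_smul_eq G P S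
  obtain ⟨b, rfl⟩ := MulAction.exists_smul_eq G P T
  have ha : a ∈ compStab P := h ▸ Subgroup.mem_top a
  have hb : b ∈ compStab P := h ▸ Subgroup.mem_top b
  exact (sylConn_symm ha).trans hb

end Cfsg.Agent.Lib.Helper18
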