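import Mathlib
import Cfsg.Agent.S0058
import Cfsg.Agent.Lib.Helper18.SylChain

set_option autoImplicit false

namespace Cfsg.Agent.Lib.Helper18

open Cfsg

variable {G : Type*} [Group G] {p : ℕ}

theorem exists_orderOf_eq_prime [Finite G] [Fact p.Prime] {X : Subgroup G} (hX : IsPGroup p X)
    (hne : X ≠ ⊥) : ∃ a ∈ X, orderOf a = p := by
  obtain ⟨k, hk⟩ := IsPGroup.iff_card.1 hX
  have hk0 : k ≠ 0 := by
    rintro rfl
    rw [pow_zero] at hk
    exact hne (Subgroup.card_eq_one.1 hk)
  have hdvd : p ∣ Nat.card X := hk ▸ dvd_pow_self p hk0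
  obtain ⟨a, ha⟩ := exists_prime_orderOf_dvd_card' p hdvd
  exact ⟨a.1, a.2, by rw [← ha, Subgroup.orderOf_coe]⟩

theorem closure_pair [Finite G] [Fact p.Prime] {a b : G} (hab : Commute a b) (ha : orderOf a = p)
    (hb : b ^ p = 1) (hbn : b ∉ Subgroup.zpowers a) :
    IsMulCommutative (Subgroup.closure {a, b}) ∧ ¬ IsCyclic (Subgroup.closure {a, b}) ∧
      ∀ e ∈ Subgroup.closure {a, b}, e ^ p = 1 := by
  have hc : IsMulCommutative (Subgroup.closure {a, b}) := by
    apply Subgroup.isMulCommutative_closure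
    intro x hx y hy
    rcases hx with rfl | rfl <;> rcases hy with rfl | rfl
    · rfl
    · exact hab.eq
    · exact hab.eq.symm
    · rfl
  have hpow : ∀ e ∈ Subgroup.closure {a, b}, e ^ p = 1 := by
    intro e he
    induction he using Subgroup.closure_induction with
    | mem s hs =>
      rcases hs with rfl | rfl
      · rw [← ha]; exact pow_orderOf_eq_one _
      · exact hb
    | one => exact one_pow p
    | mul x y hx hy ihx ihy =>
      have hxy : Commute x y := setLike_mul_comm hx hy
      rw [hxy.mul_pow, ihx, ihy, one_mul]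
    | inv x hx ihx => rw [inv_pow, ihx, inv_one]
  refine ⟨hc, ?_, hpow⟩
  intro hcyc
  obtain ⟨g, hg⟩ := hcyc.exists_generator
  have hg1 : g ^ p = 1 := Subtype.ext (hpow g g.2)
  have haE : a ∈ Subgroup.closure {a, b} := Subgroup.subset_closure (by simp)
  have hbE : b ∈ Subgroup.closure {a, b} := Subgroup.subset_closure (by simp)
  have hle : Nat.card (Subgroup.closure {a, b}) ≤ p := by
    rw [← orderOf_eq_card_of_forall_mem_zpowers hg]
    exact Nat.le_of_dvd (Fact.out : p.Prime).pos (orderOf_dvd_of_pow_eq_one hg1)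
  have haE' : Subgroup.zpowers a ≤ Subgroup.closure {a, b} := Subgroup.zpowers_le.2 haE
  have heq : Subgroup.zpowers a = Subgroup.closure {a, b} :=
    Subgroup.eq_of_le_of_card_ge haE' (by rw [Nat.card_zpowers, ha]; exact hle)
  exact hbn (heq ▸ hbE)

theorem pprime_le_compStab [Finite G] [Fact p.Prime] {P : Sylow p G} {E D : Subgroup G}
    (hE : E ≤ (P : Subgroup G)) [IsMulCommutative E] (hnc : ¬ IsCyclic E)
    (hED : E ≤ Subgroup.normalizer (D : Set G)) (hD : (Nat.card D).Coprime p) :
    D ≤ compStab P := by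
  have hcop : (Nat.card E).Coprime (Nat.card D) := by
    obtain ⟨k, hk⟩ := IsPGroup.iff_card.1 (P.2.to_le hE)
    rw [hk]
    exact Nat.Coprime.pow_left k hD.symm
  rw [← Cfsg.Agent.S0058.result E D hnc hED hcop]
  apply iSup₂_le
  intro e he
  obtain ⟨heE, he1⟩ := he
  refine inf_le_right.trans ?_
  refine le_trans ?_ (normalizer_le_compStab (X := Subgroup.zpowers e)
    (Subgroup.zpowers_le.2 (hE heE)) (by simpa using he1))
  intro c hc
  rw [Subgroup.mem_normalizer_iff]
  have hce : Commute c e := Subgroup.mem_centralizer_singleton_iff.1 hc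
  intro y
  have key : ∀ y ∈ Subgroup.zpowers e, c * y * c⁻¹ = y := by
    intro y hy
    obtain ⟨k, rfl⟩ := Subgroup.mem_zpowers_iff.1 hy
    have := (hce.zpow_right k).eq
    rw [this, mul_assoc, mul_inv_cancel, mul_one]
  constructor
  · intro hy
    rw [key y hy]; exact hy
  · intro hy
    have h2 : c⁻¹ * (c * y * c⁻¹) * c = c * y * c⁻¹ := by
      have := key _ hy
      calc c⁻¹ * (c * y * c⁻¹) * c = c⁻¹ * (c * (c * y * c⁻¹) * c⁻¹) * c := by rw [this]
        _ = c * y * c⁻¹ := by group
    have h3 : c⁻¹ * (c * y * c⁻¹) * c = y := by group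
    rw [← h3, h2]; exact hy

end Cfsg.Agent.Lib.Helper18
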