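import Mathlib
import Cfsg.Agent.Lib.Helper18.Trans

set_option autoImplicit false
set_option linter.unusedSectionVars false

open scoped commutatorElement Pointwise

namespace Cfsg.Agent.Lib.Helper18.Trans

open Subgroup Cfsg.Agent.Lib.Helper1 Cfsg.Agent.Lib.Helper9 Cfsg.Agent.S1480

variable {G : Type*} [Group G] [Finite G]

theorem primesNotDvd_eq {A P : Subgroup G} (hAP : A ≤ P)
    (hPπ : ∀ r : ℕ, r.Prime → r ∣ Nat.card P → r ∣ Nat.card A) :
    Cfsg.primesNotDvd (Nat.card P) = Cfsg.primesNotDvd (Nat.card A) := by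
  ext r
  constructor
  · rintro ⟨hr, h⟩
    exact ⟨hr, fun h' => h (h'.trans (card_dvd_of_le hAP))⟩
  · rintro ⟨hr, h⟩
    exact ⟨hr, fun h' => h (hPπ r hr h')⟩

theorem hyp_of_le {A P : Subgroup G} (hA : Cfsg.TransitivityHypothesis A) (hAP : A ≤ P)
    (hP : P ≠ ⊤) (hPπ : ∀ r : ℕ, r.Prime → r ∣ Nat.card P → r ∣ Nat.card A) :
    Cfsg.TransitivityHypothesis P := by
  refine ⟨fun h => hA.1 (le_bot_iff.1 (h ▸ hAP)), hP, fun X hX hPX => ?_⟩
  rw [primesNotDvd_eq hAP hPπ]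
  apply le_antisymm
  · apply sSup_le
    rintro U ⟨hUX, hUπ, hPU⟩
    exact inv_le_core hA hX (hAP.trans hPX) hUX hUπ (hAP.trans hPU)
  · exact le_sSup ⟨piCoreOf_le _ _, piCoreOf_pi _ _, hPX.trans (le_normalizer_piCoreOf _ _)⟩

theorem inv_cj_normalizer (A : Subgroup G) (q : ℕ) [Fact q.Prime]
    {g : G} (hg : g ∈ normalizer (A : Set G)) {Y : Subgroup G}
    (hY : Y ∈ Cfsg.invSubgroups ⊤ A {q}) :
    Y.map (MulAut.conj g).toMonoidHom ∈ Cfsg.invSubgroups ⊤ A {q} := by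
  rw [inv_iff] at hY ⊢
  refine ⟨hY.1.map _, ?_⟩
  rw [le_normalizer_iff]
  intro e he x hx
  rw [mem_cj] at hx ⊢
  have h0 : g⁻¹ * e * g⁻¹⁻¹ ∈ A := le_normalizer_iff.1 (le_refl _) g⁻¹ (inv_mem hg) e he
  have h1 := le_normalizer_iff.1 hY.2 _ h0 _ hx
  have : g⁻¹ * (e * x * e⁻¹) * g = g⁻¹ * e * g⁻¹⁻¹ * (g⁻¹ * x * g) * (g⁻¹ * e * g⁻¹⁻¹)⁻¹ := by
    group
  rw [this]; exact h1

theorem maxInv_cj_normalizer (A : Subgroup G) (q : ℕ) [Fact q.Prime]
    {g : G} (hg : g ∈ normalizer (A : Set G)) {Y : Subgroup G}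
    (hY : Y ∈ Cfsg.maxInvSubgroups ⊤ A {q}) :
    Y.map (MulAut.conj g).toMonoidHom ∈ Cfsg.maxInvSubgroups ⊤ A {q} := by
  refine ⟨inv_cj_normalizer A q hg hY.1, fun R hR hle => ?_⟩
  have h1 := hY.2 _ (inv_cj_normalizer A q (inv_mem hg) hR) (by
    have := map_mono (f := (MulAut.conj g⁻¹).toMonoidHom) hle
    rwa [cj_cj, inv_mul_cancel, cj_one] at this)
  rw [← h1, cj_cj, mul_inv_cancel, cj_one]

theorem conj_mem_centralizer {A : Subgroup G} {g c : G} (hg : g ∈ normalizer (A : Set G))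
    (hc : c ∈ centralizer (A : Set G)) : g * c * g⁻¹ ∈ centralizer (A : Set G) := by
  rw [mem_centralizer_iff]
  intro a ha
  have h0 : g⁻¹ * a * g⁻¹⁻¹ ∈ A := le_normalizer_iff.1 (le_refl _) g⁻¹ (inv_mem hg) a ha
  have h1 := (mem_centralizer_iff.1 hc) _ h0
  calc a * (g * c * g⁻¹) = g * ((g⁻¹ * a * g⁻¹⁻¹) * c) * g⁻¹ := by group
    _ = g * (c * (g⁻¹ * a * g⁻¹⁻¹)) * g⁻¹ := by rw [h1]
    _ = g * c * g⁻¹ * a := by group

theorem normalizer_le_normalizer_K (hG : Cfsg.IsMinSimpleOddOrder G) {A : Subgroup G}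
    (hA : Cfsg.TransitivityHypothesis A) :
    normalizer (A : Set G) ≤ normalizer
      (Cfsg.piCoreOf (Cfsg.primesNotDvd (Nat.card A)) (centralizer (A : Set G)) : Set G) := by
  rw [le_normalizer_iff]
  intro g hg k hk
  set K := Cfsg.piCoreOf (Cfsg.primesNotDvd (Nat.card A)) (centralizer (A : Set G)) with hK
  have h1 : K.map (MulAut.conj g).toMonoidHom ≤ K := by
    apply le_K hG hA
    · rintro _ ⟨y, hy, rfl⟩
      exact conj_mem_centralizer hg (piCoreOf_le _ _ hy)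
    · intro r hr hd
      rw [card_map_of_injective (MulAut.conj g).injective] at hd
      exact piCoreOf_pi _ _ r hr hd
  exact h1 ⟨k, hk, rfl⟩

theorem map_conj_eq_of_mem_normalizer {Q : Subgroup G} {a : G}
    (ha : a ∈ normalizer (Q : Set G)) : Q.map (MulAut.conj a).toMonoidHom = Q := by
  ext x
  rw [mem_cj]
  have := (mem_normalizer_iff.1 (inv_mem ha)) x
  rw [inv_inv] at this
  exact this.symm

/-- part (a) -/
theorem K_inf_centralizer (hG : Cfsg.IsMinSimpleOddOrder G) {A : Subgroup G}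
    (hA : Cfsg.TransitivityHypothesis A) {P : Subgroup G} (hAP : A ≤ P) :
    Cfsg.piCoreOf (Cfsg.primesNotDvd (Nat.card A)) (centralizer (A : Set G)) ⊓
      centralizer (P : Set G) =
    Cfsg.piCoreOf (Cfsg.primesNotDvd (Nat.card A)) (centralizer (P : Set G)) := by
  have hCC : centralizer (P : Set G) ≤ centralizer (A : Set G) := centralizer_le hAP
  apply le_antisymm
  · apply le_piCoreOf _ inf_le_right
    · exact le_normalizer_inf (hCC.trans (le_normalizer_piCoreOf _ _)) le_normalizer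
    · exact pi_of_le inf_le_left (piCoreOf_pi _ _)
  · exact le_inf (le_K hG hA ((piCoreOf_le _ _).trans hCC) (piCoreOf_pi _ _)) (piCoreOf_le _ _)

theorem coprime_card_of_pi {A P Y : Subgroup G}
    (hPπ : ∀ r : ℕ, r.Prime → r ∣ Nat.card P → r ∣ Nat.card A)
    (hY : ∀ r : ℕ, r.Prime → r ∣ Nat.card Y → r ∈ Cfsg.primesNotDvd (Nat.card A)) :
    (Nat.card P).Coprime (Nat.card Y) :=
  Nat.coprime_of_dvd fun k hk hkP hkY => (hY k hk hkY).2 (hPπ k hk hkP)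

theorem normal_case (hG : Cfsg.IsMinSimpleOddOrder G) {A : Subgroup G}
    (hA : Cfsg.TransitivityHypothesis A) {q : ℕ} [Fact q.Prime] (hqA : ¬ q ∣ Nat.card A)
    {P : Subgroup G} (hPπ : ∀ r : ℕ, r.Prime → r ∣ Nat.card P → r ∣ Nat.card A)
    (hAP : A ≤ P) (hn : P ≤ normalizer (A : Set G))
    (htr : ∀ Q₁ ∈ Cfsg.maxInvSubgroups ⊤ A {q}, ∀ Q₂ ∈ Cfsg.maxInvSubgroups ⊤ A {q},
      Rel (Cfsg.piCoreOf (Cfsg.primesNotDvd (Nat.card A)) (centralizer (A : Set G))) Q₁ Q₂) :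
    (∀ Q₁ ∈ Cfsg.maxInvSubgroups ⊤ P {q}, ∀ Q₂ ∈ Cfsg.maxInvSubgroups ⊤ P {q},
      Rel (Cfsg.piCoreOf (Cfsg.primesNotDvd (Nat.card A)) (centralizer (P : Set G))) Q₁ Q₂) ∧
    Cfsg.maxInvSubgroups ⊤ P {q} ⊆ Cfsg.maxInvSubgroups ⊤ A {q} := by
  classical
  set π := Cfsg.primesNotDvd (Nat.card A) with hπ
  set K := Cfsg.piCoreOf π (centralizer (A : Set G)) with hK
  have hKN : K ≤ normalizer (A : Set G) := (piCoreOf_le _ _).trans (centralizer_le_normalizer _)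
  have hPK : P ≤ normalizer (K : Set G) := hn.trans (normalizer_le_normalizer_K hG hA)
  have hNtop : normalizer (A : Set G) ≠ ⊤ := normalizer_ne_top hG hA.1 hA.2.1
  have hcop : (Nat.card P).Coprime (Nat.card K) := coprime_card_of_pi hPπ (piCoreOf_pi _ _)
  have hsolv : Group.IsSolvable P ∨ Group.IsSolvable K :=
    Or.inr (isSolvable_of_le hKN (hG.2.2.2 _ hNtop))
  let Ω := {Q : Subgroup G // Q ∈ Cfsg.maxInvSubgroups ⊤ A {q}}
  let _ : MulAction P Ω :=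
    { smul := fun g Q => ⟨Q.1.map (MulAut.conj (g : G)).toMonoidHom,
        maxInv_cj_normalizer A q (hn g.2) Q.2⟩
      one_smul := fun Q => Subtype.ext (cj_one Q.1)
      mul_smul := fun g g' Q => Subtype.ext (cj_cj (g' : G) (g : G) Q.1).symm }
  let _ : MulAction K Ω :=
    { smul := fun g Q => ⟨Q.1.map (MulAut.conj (g : G)).toMonoidHom,
        maxInv_cj_normalizer A q (hKN g.2) Q.2⟩
      one_smul := fun Q => Subtype.ext (cj_one Q.1)
      mul_smul := fun g g' Q => Subtype.ext (cj_cj (g' : G) (g : G) Q.1).symm }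
  have hsmP : ∀ (g : P) (Q : Ω), (g • Q).1 = Q.1.map (MulAut.conj (g : G)).toMonoidHom :=
    fun _ _ => rfl
  have hsmK : ∀ (g : K) (Q : Ω), (g • Q).1 = Q.1.map (MulAut.conj (g : G)).toMonoidHom :=
    fun _ _ => rfl
  have _ : Nonempty Ω := by
    obtain ⟨Q, hQ, -⟩ := exists_max A q (Y := ⊥) ((inv_iff A q ⊥).2
      ⟨IsPGroup.of_bot, by rw [le_normalizer_iff]; intro h _ k hk; rw [mem_bot.1 hk]; simp⟩)
    exact ⟨⟨Q, hQ⟩⟩
  obtain ⟨⟨x₀, hx₀⟩, hfix⟩ := glauberman_sub (X := Ω) P K hPK (by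
      intro a n x
      apply Subtype.ext
      rw [hsmP, hsmK, hsmK, hsmP, cj_cj, cj_cj, conjHom_apply_coe]
      congr 3
      group) hcop hsolv (by
      intro x y
      obtain ⟨k, hk, hxy⟩ := htr x.1 x.2 y.1 y.2
      exact ⟨⟨k, hk⟩, Subtype.ext hxy.symm⟩)
  have fixed_iff : ∀ x : Ω, (∀ a : P, a • x = x) ↔ P ≤ normalizer (x.1 : Set G) := by
    intro x
    constructor
    · intro h
      rw [le_normalizer_iff]
      intro a ha y hy
      have h1 := congrArg Subtype.val (h ⟨a, ha⟩)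
      rw [hsmP] at h1
      rw [← h1]
      exact ⟨y, hy, rfl⟩
    · intro h a
      apply Subtype.ext
      rw [hsmP]
      exact map_conj_eq_of_mem_normalizer (h a.2)
  -- members of И*(P) are members of И*(A)
  have hsub : Cfsg.maxInvSubgroups ⊤ P {q} ⊆ Cfsg.maxInvSubgroups ⊤ A {q} := by
    intro Q hQ
    obtain ⟨hQq, hPQ⟩ := (inv_iff P q Q).1 hQ.1
    have hAQ : A ≤ normalizer (Q : Set G) := hAP.trans hPQ
    obtain ⟨Q₁, hQ₁, hQQ₁⟩ := exists_max A q ((inv_iff A q Q).2 ⟨hQq, hAQ⟩)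
    by_cases hEq : Q = Q₁
    · rw [hEq]; exact hQ₁
    exfalso
    obtain ⟨hq₁, hAQ₁⟩ := (inv_iff A q Q₁).1 hQ₁.1
    by_cases hbot : Q = ⊥
    · have h1 : P ≤ normalizer (x₀.1 : Set G) := (fixed_iff x₀).1 hx₀
      have h2 := hQ.2 x₀.1 ((inv_iff P q x₀.1).2 ⟨((inv_iff A q x₀.1).1 x₀.2.1).1, h1⟩)
        (hbot ▸ bot_le)
      have h3 := x₀.2.2 Q₁ hQ₁.1 (h2 ▸ hQQ₁)
      exact hEq (h2.symm.trans h3.symm)
    · have hQtop : Q ≠ ⊤ := fun h => hEq (le_antisymm hQQ₁ (h ▸ le_top))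
      set X := normalizer (Q : Set G) with hX
      have hXtop : X ≠ ⊤ := normalizer_ne_top hG hbot hQtop
      set Y := Cfsg.piCoreOf π X with hY
      obtain ⟨x, hxQ, hxN, hxD⟩ := normalizer_growth hq₁ hQQ₁ hEq
      set V := X ⊓ Q₁ with hV
      have hAV : A ≤ normalizer (V : Set G) :=
        le_normalizer_inf (hAQ.trans le_normalizer) hAQ₁
      have hVq : IsPGroup q V := hq₁.to_le inf_le_right
      have hVY : V ≤ Y := inv_le_core hA hXtop hAQ inf_le_left (pi_of_qgroup hqA hVq) hAV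
      have hQV : Q ≤ V := le_inf le_normalizer hQQ₁
      have hQltV : Q < V := lt_of_le_of_ne hQV fun h => hxD (h ▸ mem_inf.2 ⟨hxN, hxQ⟩)
      have hPY : P ≤ normalizer (Y : Set G) := hPQ.trans (le_normalizer_piCoreOf _ _)
      have hcopY : (Nat.card P).Coprime (Nat.card Y) := coprime_card_of_pi hPπ (piCoreOf_pi _ _)
      have hsolvY : Group.IsSolvable P ∨ Group.IsSolvable Y :=
        Or.inr (isSolvable_of_le (piCoreOf_le _ _) (hG.2.2.2 _ hXtop))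
      obtain ⟨S, hQS, hPS⟩ := invariant_sylow_ge P Y hPY hcopY hsolvY q _ Q rfl (hQV.trans hVY)
        hQq hPQ
      have h2 := hQ.2 _ ((inv_iff P q _).2 ⟨S.2.map _, hPS⟩) hQS
      obtain ⟨S', hS'⟩ := (hVq.comap_subtype : IsPGroup q (V.subgroupOf Y)).exists_le_sylow
      have c1 : Nat.card V ≤ Nat.card S' := by
        rw [← card_subgroupOf_of_le hVY]
        exact card_le_of_le hS'
      have c2 : Nat.card S' = Nat.card S := by
        rw [Sylow.card_eq_multiplicity, Sylow.card_eq_multiplicity]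
      have c3 : Nat.card S = Nat.card Q := by
        rw [← h2, card_map_of_injective Y.subtype_injective]
      have c4 : Nat.card Q < Nat.card V := card_lt_of_lt hQltV
      omega
  refine ⟨?_, hsub⟩
  intro Q₁ hQ₁ Q₂ hQ₂
  obtain ⟨n, hn1, hn2⟩ := hfix ⟨Q₁, hsub hQ₁⟩ ⟨Q₂, hsub hQ₂⟩
    ((fixed_iff _).2 ((inv_iff P q Q₁).1 hQ₁.1).2) ((fixed_iff _).2 ((inv_iff P q Q₂).1 hQ₂.1).2)
  refine ⟨n, ?_, (congrArg Subtype.val hn2).symm⟩
  rw [← K_inf_centralizer hG hA hAP]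
  exact mem_inf.2 ⟨n.2, hn1⟩

end Cfsg.Agent.Lib.Helper18.Trans
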